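import Mathlib

/-!
# Fixed vectors in representations of symmetric groups (S4792, alternating groups): definitions

* `KeyLemma` : the statement of the key lemma of section 10 of `tools/plans/S4792.md`.
* `Good α` : every representation `V ≠ 0` of `Perm α` has a nonzero vector fixed by the centralizer in `A_α` of
  some `x ∈ A_α`.
-/

set_option autoImplicit false

namespace Cfsg.Agent.H127.An

open Equiv

/-- **The key lemma** (to be proved): `p ≥ 5` prime, `V ≠ 0` a representation of `S_p` in which no `p`-cycle has a
nonzero fixed vector.  Then there is a nonzero vector on which the stabiliser of a point acts trivially or by the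
sign. -/
def KeyLemma : Prop :=
  ∀ (p : ℕ), p.Prime → 5 ≤ p → ∀ (V : Type) [AddCommGroup V] [Module ℂ V] [FiniteDimensional ℂ V] [Nontrivial V]
    (ρ : Representation ℂ (Perm (Fin p)) V),
    (∀ c : Perm (Fin p), c.IsCycle → c.support = Finset.univ → ∀ v, ρ c v = v → v = 0) →
    ∃ (a : Fin p) (v : V), v ≠ 0 ∧ ((∀ g : Perm (Fin p), g a = a → ρ g v = v) ∨
      ∀ g : Perm (Fin p), g a = a → ρ g v = ((Perm.sign g : ℤ) : ℂ) • v)

/-- every representation `V ≠ 0` of `Perm α` has a nonzero vector fixed by `C(x) ∩ A_α` for some `x ∈ A_α` -/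
def Good (α : Type) [Fintype α] [DecidableEq α] : Prop :=
  ∀ (V : Type) [AddCommGroup V] [Module ℂ V] [FiniteDimensional ℂ V] [Nontrivial V]
    (ρ : Representation ℂ (Perm α) V), ∃ x ∈ alternatingGroup α, ∃ v : V, v ≠ 0 ∧
      ∀ g ∈ alternatingGroup α, Commute g x → ρ g v = v

end Cfsg.Agent.H127.An
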