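import Cfsg.Agent.H917.Conj.Basic
import Cfsg.Agent.H127.An.Key

/-!
# `Good α` implies the row of the alternating group (S4792)
-/

set_option autoImplicit false

namespace Cfsg.Agent.H127.An

open Equiv Cfsg.Agent.H430.Conj

variable {α : Type} [Fintype α] [DecidableEq α] {V : Type} [AddCommGroup V] [Module ℂ V]

/-- the induced module -/
def Ind (ρ : Representation ℂ (alternatingGroup α) V) : Submodule ℂ (Perm α → V) where
  carrier := {f | ∀ (h : alternatingGroup α) (g : Perm α), f (h * g) = ρ h (f g)}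
  add_mem' {a b} ha hb h g := by
    rw [Pi.add_apply, Pi.add_apply, ha, hb, map_add]
  zero_mem' h g := by
    rw [Pi.zero_apply, Pi.zero_apply, map_zero]
  smul_mem' c a ha h g := by
    rw [Pi.smul_apply, Pi.smul_apply, ha, map_smul]

theorem mem_Ind {ρ : Representation ℂ (alternatingGroup α) V} {f : Perm α → V} :
    f ∈ Ind ρ ↔ ∀ (h : alternatingGroup α) (g : Perm α), f (h * g) = ρ h (f g) := Iff.rfl

/-- the induced representation -/
def indRep (ρ : Representation ℂ (alternatingGroup α) V) : Representation ℂ (Perm α) (Ind ρ) where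
  toFun g :=
    { toFun := fun f => ⟨fun x => f.1 (x * g), fun h x => by
          show f.1 (h * x * g) = ρ h (f.1 (x * g))
          rw [mul_assoc]; exact f.2 h (x * g)⟩
      map_add' := fun _ _ => rfl
      map_smul' := fun _ _ => rfl }
  map_one' := by
    apply LinearMap.ext
    intro f
    apply Subtype.ext
    funext x
    show f.1 (x * 1) = f.1 x
    rw [mul_one]
  map_mul' g h := by
    apply LinearMap.ext
    intro f
    apply Subtype.ext
    funext x
    show f.1 (x * (g * h)) = f.1 (x * g * h)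
    rw [mul_assoc]

theorem indRep_apply (ρ : Representation ℂ (alternatingGroup α) V) (g : Perm α) (f : Ind ρ) (x : Perm α) :
    (indRep ρ g f).1 x = f.1 (x * g) := rfl

theorem row_of_good (hG : Good α) : Row (alternatingGroup α) := by
  classical
  rintro χ ⟨n, ρ, hirr, rfl⟩
  have hnt : Nontrivial (Fin n → ℂ) := by
    by_contra hcon
    rw [not_nontrivial_iff_subsingleton] at hcon
    have h1 : Nontrivial (Subrepresentation ρ) := hirr.toNontrivial
    obtain ⟨a, b, hab⟩ := h1
    apply hab
    ext v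
    have hv : v = 0 := Subsingleton.elim _ _
    rw [hv]
    exact ⟨fun _ => Submodule.zero_mem _, fun _ => Submodule.zero_mem _⟩
  obtain ⟨v, hv⟩ := exists_ne (0 : Fin n → ℂ)
  have hInd : Nontrivial (Ind ρ) := by
    let f : Perm α → (Fin n → ℂ) := fun g => if h : g ∈ alternatingGroup α then ρ ⟨g, h⟩ v else 0
    have hf : f ∈ Ind ρ := by
      intro h g
      by_cases hg : g ∈ alternatingGroup α
      · have h1 : (h : Perm α) * g ∈ alternatingGroup α := mul_mem h.2 hg
        simp only [f, dif_pos hg, dif_pos h1]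
        rw [← Module.End.mul_apply, ← map_mul]
        rfl
      · have h1 : (h : Perm α) * g ∉ alternatingGroup α := fun h2 => hg ((Subgroup.mul_mem_cancel_left _ h.2).1 h2)
        simp only [f, dif_neg hg, dif_neg h1, map_zero]
    refine ⟨⟨⟨f, hf⟩, 0, fun h => hv ?_⟩⟩
    have h1 : f 1 = 0 := congrFun (congrArg Subtype.val h) 1
    simp only [f, dif_pos (one_mem (alternatingGroup α))] at h1
    have h2 : (⟨1, one_mem _⟩ : alternatingGroup α) = 1 := rfl
    rwa [h2, map_one, Module.End.one_apply] at h1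
  obtain ⟨x, hx, f, hf, hfix⟩ := hG (Ind ρ) (indRep ρ)
  obtain ⟨y, hy⟩ : ∃ y, f.1 y ≠ 0 := by
    by_contra hcon
    push Not at hcon
    exact hf (Subtype.ext (funext hcon))
  have hyx : y * x * y⁻¹ ∈ alternatingGroup α := (inferInstance : (alternatingGroup α).Normal).conj_mem x hx y
  refine ⟨⟨y * x * y⁻¹, hyx⟩, hasFix_of_vector ρ _ (f.1 y) hy fun c hc => ?_⟩
  have hc1 : (c : Perm α) * (y * x * y⁻¹) = y * x * y⁻¹ * c :=
    congrArg Subtype.val (Subgroup.mem_centralizer_singleton_iff.1 hc)
  have hc2 : y⁻¹ * c * y ∈ alternatingGroup α := by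
    have := (inferInstance : (alternatingGroup α).Normal).conj_mem c c.2 y⁻¹
    rwa [inv_inv] at this
  have h1 : Commute (y⁻¹ * c * y) x := by
    show y⁻¹ * c * y * x = x * (y⁻¹ * c * y)
    have h2 : y⁻¹ * ((c : Perm α) * (y * x * y⁻¹)) * y = y⁻¹ * (y * x * y⁻¹ * c) * y := by rw [hc1]
    calc y⁻¹ * c * y * x = y⁻¹ * ((c : Perm α) * (y * x * y⁻¹)) * y := by group
      _ = y⁻¹ * (y * x * y⁻¹ * c) * y := h2
      _ = _ := by group
  have h3 := congrFun (congrArg Subtype.val (hfix _ hc2 h1)) y
  rw [indRep_apply] at h3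
  rw [← f.2 c y, ← h3]
  group

end Cfsg.Agent.H127.An
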