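import Cfsg.Agent.H127.An.Tools

/-!
# The relation lemma (S4792, alternating groups)

`rel` : in a representation `V ≠ 0` of `S_{p+1}`, `p ≥ 5` prime, some `p`-cycle has a nonzero fixed vector.
-/

set_option autoImplicit false
set_option linter.unusedSectionVars false

namespace Cfsg.Agent.H127.An

open Equiv

variable {α : Type} [Fintype α] [DecidableEq α] {V : Type} [AddCommGroup V] [Module ℂ V]

/-- the relations of the function `w` -/
theorem rel_fn {p : ℕ} (h5 : 5 ≤ p) (hα : Fintype.card α = p + 1) (ρ : Representation ℂ (Perm α) V)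
    (hno : ∀ (s : Finset α) (c : Perm α), Cyc p s c → ∀ v, ρ c v = v → v = 0)
    (w : α × α → V) (hw : ∀ (g : Perm α) (x : α × α), ρ g (w x) = w (g • x)) (hw0 : ∀ i, w (i, i) = 0)
    {ε : ℂ} (hε : ε * ε = 1) (hsym : ∀ i j, w (j, i) = ε • w (i, j)) : w = 0 := by
  have hw' : ∀ (g : Perm α) (i j : α), ρ g (w (i, j)) = w (g i, g j) := fun g i j => hw g (i, j)
  -- row sums
  have hsum : ∀ i, ∑ j, w (i, j) = 0 := by
    intro i
    obtain ⟨c, hc⟩ := exists_cyc (Finset.univ.erase i)
    have hcard : (Finset.univ.erase i).card = p := by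
      rw [Finset.card_erase_of_mem (Finset.mem_univ i), Finset.card_univ, hα, Nat.add_sub_cancel]
    rw [hcard] at hc
    refine hno _ c hc _ ?_
    rw [map_sum]
    have hi : c i = i := hc.fix (by simp)
    calc ∑ j, ρ c (w (i, j)) = ∑ j, w (i, c j) := Finset.sum_congr rfl fun j _ => by rw [hw', hi]
      _ = ∑ j, w (i, j) := Equiv.sum_comp c fun j => w (i, j)
  -- the sum over a cycle
  have hcyc : ∀ (s : Finset α) (c : Perm α), Cyc p s c → ∑ y ∈ s, w (y, c y) = 0 := by
    intro s c hc
    refine hno s c hc _ ?_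
    rw [map_sum]
    have h1 : ∀ y ∈ s, ρ c (w (y, c y)) = w (c y, c (c y)) := fun y _ => hw' c _ _
    rw [Finset.sum_congr rfl h1]
    refine Finset.sum_bij (fun y _ => c y) (fun y hy => hc.mem_iff.2 hy) (fun y _ z _ h => c.injective h)
      (fun y hy => ⟨c⁻¹ y, ?_, ?_⟩) (fun y _ => rfl)
    · rw [← hc.mem_iff]
      simpa using hy
    · simp
  -- the basic relation
  have hrel : ∀ i k l j : α, i ≠ k → i ≠ l → i ≠ j → k ≠ l → k ≠ j → l ≠ j →
      w (i, k) + w (k, l) + w (l, j) = w (i, l) + w (l, k) + w (k, j) := by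
    intro i k l j hik hil hij hkl hkj hlj
    -- a `p`-cycle `i → k → l → j`
    obtain ⟨c, s, hc, h1, h2, h3, his, hks, hls⟩ : ∃ (c : Perm α) (s : Finset α), Cyc p s c ∧ c i = k ∧ c k = l ∧
        c l = j ∧ i ∈ s ∧ k ∈ s ∧ l ∈ s := by
      obtain ⟨s0, hs0⟩ : ∃ s0 : Finset α, s0.card = p := by
        obtain ⟨s0, -, hs0⟩ := Finset.exists_subset_card_eq (s := (Finset.univ : Finset α)) (n := p) (by
          rw [Finset.card_univ, hα]; omega)
        exact ⟨s0, hs0⟩
      obtain ⟨c0, hc0⟩ := exists_cyc s0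
      rw [hs0] at hc0
      obtain ⟨x0, hx0⟩ : s0.Nonempty := by rw [← Finset.card_pos, hs0]; omega
      have hmem : ∀ n : ℕ, (c0 ^ n) x0 ∈ s0 := by
        intro n
        induction n with
        | zero => exact hx0
        | succ n ih => rw [pow_succ', Perm.mul_apply]; exact hc0.mem_iff.2 ih
      have hne : ∀ m n : ℕ, m < n → n < p → (c0 ^ m) x0 ≠ (c0 ^ n) x0 := by
        intro m n hmn hnp h
        have e1 : (c0 ^ (n - m)) x0 = x0 := by
          have : (c0 ^ m) ((c0 ^ (n - m)) x0) = (c0 ^ m) x0 := by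
            rw [← Perm.mul_apply, ← pow_add, Nat.add_sub_cancel' hmn.le, h]
          exact (c0 ^ m).injective this
        have e2 := (hc0.on.pow_apply_eq hx0).1 e1
        rw [hs0] at e2
        have := Nat.le_of_dvd (by omega) e2
        omega
      obtain ⟨g, g0, g1, g2, g3⟩ := exists_perm4 (hne 0 1 (by omega) (by omega)) (hne 0 2 (by omega) (by omega))
        (hne 0 3 (by omega) (by omega)) (hne 1 2 (by omega) (by omega)) (hne 1 3 (by omega) (by omega))
        (hne 2 3 (by omega) (by omega)) hik hil hij hkl hkj hlj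
      have hconj : ∀ n : ℕ, (g * c0 * g⁻¹) (g ((c0 ^ n) x0)) = g ((c0 ^ (n + 1)) x0) := by
        intro n
        have e : g⁻¹ (g ((c0 ^ n) x0)) = (c0 ^ n) x0 := by simp
        rw [Perm.mul_apply, Perm.mul_apply, e, pow_succ', Perm.mul_apply]
      have hgm : ∀ n : ℕ, g ((c0 ^ n) x0) ∈ s0.map g.toEmbedding := fun n => Finset.mem_map_of_mem _ (hmem n)
      refine ⟨g * c0 * g⁻¹, s0.map g.toEmbedding, hc0.conj g, ?_, ?_, ?_, ?_, ?_, ?_⟩
      · rw [← g0, hconj 0, g1]
      · rw [← g1, hconj 1, g2]
      · rw [← g2, hconj 2, g3]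
      · rw [← g0]; exact hgm 0
      · rw [← g1]; exact hgm 1
      · rw [← g2]; exact hgm 2
    set t : Perm α := swap k l with ht
    have hc' : Cyc p s (t * c * t⁻¹) := by
      have := hc.conj t
      have e : s.map t.toEmbedding = s := by
        apply Finset.eq_of_subset_of_card_le
        · intro x hx
          obtain ⟨y, hy, rfl⟩ := Finset.mem_map.1 hx
          show swap k l y ∈ s
          rcases eq_or_ne y k with rfl | hyk
          · rw [swap_apply_left]; exact hls
          rcases eq_or_ne y l with rfl | hyl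
          · rw [swap_apply_right]; exact hks
          rw [swap_apply_of_ne_of_ne hyk hyl]; exact hy
        · rw [Finset.card_map]
      rwa [e] at this
    have hti : t⁻¹ = t := by rw [ht, swap_inv]
    have htk : t k = l := swap_apply_left k l
    have htl : t l = k := swap_apply_right k l
    have hto : ∀ y, y ≠ k → y ≠ l → t y = y := fun y h1 h2 => swap_apply_of_ne_of_ne h1 h2
    have hc'a : ∀ y, (t * c * t⁻¹) y = t (c (t y)) := fun y => by rw [hti]; rfl
    have e1 : (t * c * t⁻¹) i = l := by rw [hc'a, hto i hik hil, h1, htk]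
    have e2 : (t * c * t⁻¹) l = k := by rw [hc'a, htl, h2, htl]
    have e3 : (t * c * t⁻¹) k = j := by rw [hc'a, htk, h3, hto j hkj.symm hlj.symm]
    have e4 : ∀ y, y ≠ i → y ≠ k → y ≠ l → (t * c * t⁻¹) y = c y := by
      intro y hi hk hl
      rw [hc'a, hto y hk hl]
      apply hto
      · intro h; exact hi (c.injective (h.trans h1.symm))
      · intro h; exact hk (c.injective (h.trans h2.symm))
    have s1 := hcyc s c hc
    have s2 := hcyc s _ hc'
    have key : ∀ f : α → V, ∑ y ∈ s, f y = f i + f k + f l + ∑ y ∈ ((s.erase i).erase k).erase l, f y := by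
      intro f
      have m1 : k ∈ s.erase i := Finset.mem_erase.2 ⟨hik.symm, hks⟩
      have m2 : l ∈ (s.erase i).erase k := Finset.mem_erase.2 ⟨hkl.symm, Finset.mem_erase.2 ⟨hil.symm, hls⟩⟩
      rw [← Finset.add_sum_erase s f his, ← Finset.add_sum_erase _ f m1, ← Finset.add_sum_erase _ f m2]
      abel
    rw [key] at s1 s2
    have s3 : ∑ y ∈ ((s.erase i).erase k).erase l, w (y, (t * c * t⁻¹) y) =
        ∑ y ∈ ((s.erase i).erase k).erase l, w (y, c y) := by
      refine Finset.sum_congr rfl fun y hy => ?_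
      simp only [Finset.mem_erase] at hy
      rw [e4 y hy.2.2.1 hy.2.1 hy.1]
    rw [s3, e1, e2, e3] at s2
    rw [h1, h2, h3] at s1
    rw [← sub_eq_zero]
    have s4 := s1.trans s2.symm
    rw [← sub_eq_zero] at s4
    rw [← s4]
    abel
  -- summation
  have hp0 : ((p : ℂ) - ε) ≠ 0 := by
    intro h
    have h1 : (p : ℂ) = ε := sub_eq_zero.1 h
    rw [← h1] at hε
    have h2 : p * p = 1 := by exact_mod_cast hε
    nlinarith
  have hp1 : ((p : ℂ) - 1 + ε) ≠ 0 := by
    intro h
    have h1 : ε = 1 - (p : ℂ) := by linear_combination h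
    rw [h1] at hε
    have h2 : ((p : ℂ) * p) = ((2 * p : ℕ) : ℂ) := by push_cast; linear_combination hε
    have h3 : p * p = 2 * p := by exact_mod_cast h2
    nlinarith
  have heq : ∀ i k j : α, i ≠ k → i ≠ j → k ≠ j → w (i, k) = w (k, j) := by
    intro i k j hik hij hkj
    set Fn : α → V := fun l => w (i, k) + (1 - ε) • w (k, l) + w (l, j) - w (i, l) - w (k, j) with hF
    have hF0 : ∀ l, l ≠ i → l ≠ k → l ≠ j → Fn l = 0 := by
      intro l hi hk hj
      have := hrel i k l j hik hi.symm hij hk.symm hkj hj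
      rw [hsym k l] at this
      simp only [hF]
      have h2 : w (i, k) + w (k, l) + w (l, j) - (w (i, l) + ε • w (k, l) + w (k, j)) = 0 := by
        rw [this, sub_self]
      rw [← h2]
      module
    have hcol : ∑ l, w (l, j) = 0 := by
      have : ∀ l, w (l, j) = ε • w (j, l) := fun l => hsym j l
      rw [Finset.sum_congr rfl fun l _ => this l, ← Finset.smul_sum, hsum, smul_zero]
    have hS1 : ∑ l, Fn l = ((p : ℂ) + 1) • (w (i, k) - w (k, j)) := by
      simp only [hF, Finset.sum_sub_distrib, Finset.sum_add_distrib, ← Finset.smul_sum, hsum, hcol, Finset.sum_const,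
        Finset.card_univ, hα, smul_zero, add_zero, sub_zero]
      rw [← Nat.cast_smul_eq_nsmul ℂ, ← Nat.cast_smul_eq_nsmul ℂ]
      push_cast
      module
    have hS2 : ∑ l, Fn l = Fn i + Fn k + Fn j := by
      have m1 : k ∈ Finset.univ.erase i := Finset.mem_erase.2 ⟨hik.symm, Finset.mem_univ _⟩
      have m2 : j ∈ (Finset.univ.erase i).erase k :=
        Finset.mem_erase.2 ⟨hkj.symm, Finset.mem_erase.2 ⟨hij.symm, Finset.mem_univ _⟩⟩
      rw [← Finset.add_sum_erase _ Fn (Finset.mem_univ i), ← Finset.add_sum_erase _ Fn m1,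
        ← Finset.add_sum_erase _ Fn m2, Finset.sum_eq_zero, add_zero, add_assoc]
      intro l hl
      simp only [Finset.mem_erase] at hl
      exact hF0 l hl.2.2.1 hl.2.1 hl.1
    have h1 : Fn i = w (i, k) + (1 - ε) • (ε • w (i, k)) + w (i, j) - w (k, j) := by
      simp only [hF]
      rw [hsym i k, hw0, sub_zero]
    have h2 : Fn k = 0 := by
      simp only [hF]
      rw [hw0, smul_zero, add_zero]
      abel
    have h3 : Fn j = w (i, k) + (1 - ε) • w (k, j) - w (i, j) - w (k, j) := by
      simp only [hF]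
      rw [hw0, add_zero]
    rw [hS1, h1, h2, h3] at hS2
    have h4 : ((p : ℂ) - ε) • (w (i, k) - w (k, j)) = 0 := by
      have h5 : ((p : ℂ) + 1) • (w (i, k) - w (k, j)) - (w (i, k) + (1 - ε) • (ε • w (i, k)) + w (i, j) - w (k, j) + 0 +
        (w (i, k) + (1 - ε) • w (k, j) - w (i, j) - w (k, j))) = 0 := by rw [hS2, sub_self]
      rw [← h5]
      have h6 : (1 - ε) • (ε • w (i, k)) = ε • w (i, k) - (ε * ε) • w (i, k) := by
        rw [smul_smul, ← sub_smul]
        congr 1
        ring
      rw [h6, hε]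
      module
    exact sub_eq_zero.1 ((smul_eq_zero.1 h4).resolve_left hp0)
  -- conclusion
  funext ⟨i, k⟩
  rcases eq_or_ne i k with rfl | hik
  · exact hw0 i
  have h1 := hsum k
  have m1 : i ∈ Finset.univ.erase k := Finset.mem_erase.2 ⟨hik, Finset.mem_univ _⟩
  rw [← Finset.add_sum_erase _ _ (Finset.mem_univ k), ← Finset.add_sum_erase _ _ m1, hw0, zero_add, hsym i k,
    Finset.sum_congr rfl (g := fun _ => w (i, k)) ?_, Finset.sum_const] at h1
  · have hc : ((Finset.univ.erase k).erase i).card = p - 1 := by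
      rw [Finset.card_erase_of_mem m1, Finset.card_erase_of_mem (Finset.mem_univ k), Finset.card_univ, hα,
        Nat.add_sub_cancel]
    rw [hc, ← Nat.cast_smul_eq_nsmul ℂ, ← add_smul] at h1
    have h2 := (smul_eq_zero.1 h1).resolve_left ?_
    · exact h2
    · intro h
      apply hp1
      rw [← h, Nat.cast_sub (by omega)]
      push_cast
      ring
  · intro j hj
    simp only [Finset.mem_erase, Finset.mem_univ, and_true] at hj
    exact (heq i k j hik hj.1.symm hj.2.symm).symm

/-- the case of a vector fixed by the stabiliser of two points -/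
theorem rel_core {p : ℕ} (h5 : 5 ≤ p) (hα : Fintype.card α = p + 1) (ρ : Representation ℂ (Perm α) V)
    (hno : ∀ (s : Finset α) (c : Perm α), Cyc p s c → ∀ v, ρ c v = v → v = 0) {a b : α} (hab : a ≠ b) (v : V)
    (hv : ∀ g : Perm α, g a = a → g b = b → ρ g v = v) : v = 0 := by
  by_contra hv0
  set t : Perm α := swap a b with ht
  have hta : t a = b := swap_apply_left a b
  have htb : t b = a := swap_apply_right a b
  have htt : t * t = 1 := swap_mul_self a b
  obtain ⟨ε, hε, hne⟩ : ∃ ε : ℂ, ε * ε = 1 ∧ v + ε • ρ t v ≠ 0 := by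
    by_contra hcon
    push Not at hcon
    have h1 := hcon 1 (by norm_num)
    have h2 := hcon (-1) (by norm_num)
    apply hv0
    have h3 : (2 : ℂ) • v = 0 := by
      have : (2 : ℂ) • v = (v + (1 : ℂ) • ρ t v) + (v + (-1 : ℂ) • ρ t v) := by module
      rw [this, h1, h2, add_zero]
    exact (smul_eq_zero.1 h3).resolve_left two_ne_zero
  set u : V := v + ε • ρ t v with hu
  have htu : ρ t u = ε • u := by
    rw [hu, map_add, map_smul, ← Module.End.mul_apply, ← map_mul, htt, map_one, Module.End.one_apply, smul_add,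
      smul_smul, hε, one_smul, add_comm]
  have hufix : ∀ g : Perm α, g • (a, b) = (a, b) → ρ g u = u := by
    intro g hg
    have hga : g a = a := congrArg Prod.fst hg
    have hgb : g b = b := congrArg Prod.snd hg
    rw [hu, map_add, map_smul, hv g hga hgb]
    congr 2
    have h1 : g * t = t * (t * g * t) := by
      rw [← mul_assoc, ← mul_assoc, htt, one_mul]
    rw [← Module.End.mul_apply, ← map_mul, h1, map_mul, Module.End.mul_apply, hv]
    · simp only [Perm.mul_apply, hta, hgb, htb]
    · simp only [Perm.mul_apply, htb, hga, hta]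
  obtain ⟨w, hwx, hw, hw0⟩ := exists_equiv_fn ρ (a, b) u hufix
  have hzero : w = 0 := by
    refine rel_fn h5 hα ρ hno w hw (fun i => hw0 _ fun g hg => ?_) hε ?_
    · have h1 : g a = i := congrArg Prod.fst hg
      have h2 : g b = i := congrArg Prod.snd hg
      exact hab (g.injective (h1.trans h2.symm))
    · intro i j
      rcases eq_or_ne i j with rfl | hij
      · have h0 : w (i, i) = 0 := by
          refine hw0 _ fun g hg => ?_
          have h1 : g a = i := congrArg Prod.fst hg
          have h2 : g b = i := congrArg Prod.snd hg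
          exact hab (g.injective (h1.trans h2.symm))
        rw [h0, smul_zero]
      · obtain ⟨g, hga, hgb⟩ := exists_perm2 hab hij
        have e1 : w (i, j) = ρ g u := by
          rw [← hwx, hw]
          congr 1
          exact (Prod.ext hga hgb).symm
        have e2 : w (j, i) = ρ g (ρ t u) := by
          rw [← hwx, hw, hw]
          congr 1
          refine (Prod.ext ?_ ?_).symm
          · show g (t a) = j
            rw [hta, hgb]
          · show g (t b) = i
            rw [htb, hga]
        rw [e2, htu, map_smul, e1]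
  apply hne
  rw [← hwx, hzero]
  rfl

/-- **The relation lemma.** -/
theorem rel (hkey : KeyLemma) {p : ℕ} (hp : p.Prime) (h5 : 5 ≤ p) (hα : Fintype.card α = p + 1)
    [FiniteDimensional ℂ V] [Nontrivial V] (ρ : Representation ℂ (Perm α) V) :
    ∃ (s : Finset α) (c : Perm α), Cyc p s c ∧ ∃ v : V, v ≠ 0 ∧ ρ c v = v := by
  by_contra hcon
  push Not at hcon
  have hno : ∀ (s : Finset α) (c : Perm α), Cyc p s c → ∀ v, ρ c v = v → v = 0 := by
    intro s c hc v hv
    by_contra hv0
    exact hcon s c hc v hv0 hv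
  have hodd : Odd p := hp.odd_of_ne_two (by omega)
  have : Nonempty α := by rw [← Fintype.card_pos_iff, hα]; omega
  obtain ⟨a⟩ := this
  have hβ : Fintype.card {x : α // x ≠ a} = p := by
    rw [Fintype.card_subtype_compl, Fintype.card_subtype_eq, hα, Nat.add_sub_cancel]
  obtain ⟨b, v, hv, h⟩ := key_type hkey (α := {x : α // x ≠ a}) (by rw [hβ]; exact hp) (by rw [hβ]; exact h5)
    (ρ.comp (Perm.ofSubtype : Perm {x : α // x ≠ a} →* Perm α)) (by
      intro c hc v hv
      rw [hβ] at hc
      refine hno (Finset.univ.erase a) (Perm.ofSubtype c) ⟨?_, ?_, ?_⟩ v hv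
      · rw [Finset.card_erase_of_mem (Finset.mem_univ a), Finset.card_univ, hα, Nat.add_sub_cancel]
      · have hmem : ∀ x : α, x ∈ ((Finset.univ.erase a : Finset α) : Set α) ↔ x ≠ a := by
          intro x
          simp
        have happ : ∀ (n : ℤ) (x : α) (hx : x ≠ a), ((Perm.ofSubtype c) ^ n) x = ((c ^ n) ⟨x, hx⟩ : {x : α // x ≠ a}) := by
          intro n x hx
          rw [← map_zpow]
          exact Perm.ofSubtype_apply_of_mem (p := fun x => x ≠ a) (c ^ n) hx
        refine ⟨⟨fun x hx => ?_, (Perm.ofSubtype c).injective.injOn, fun y hy => ?_⟩, fun x hx y hy => ?_⟩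
        · rw [hmem] at hx ⊢
          have := happ 1 x hx
          rw [zpow_one, zpow_one] at this
          rw [this]
          exact (c ⟨x, hx⟩).2
        · rw [hmem] at hy
          refine ⟨(c⁻¹ ⟨y, hy⟩ : {x : α // x ≠ a}), (hmem _).2 (c⁻¹ ⟨y, hy⟩).2, ?_⟩
          have := happ 1 _ (c⁻¹ ⟨y, hy⟩).2
          rw [zpow_one, zpow_one] at this
          rw [this]
          simp
        · rw [hmem] at hx hy
          obtain ⟨k, hk⟩ := hc.on.2 (show (⟨x, hx⟩ : {x : α // x ≠ a}) ∈ _ by simp)
            (show (⟨y, hy⟩ : {x : α // x ≠ a}) ∈ _ by simp)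
          refine ⟨k, ?_⟩
          rw [happ k x hx, hk]
      · intro x hx
        rw [Finset.mem_erase]
        refine ⟨?_, Finset.mem_univ _⟩
        rintro rfl
        rw [Perm.mem_support] at hx
        exact hx (Perm.ofSubtype_apply_of_not_mem c (by simp)))
  have hab : a ≠ (b : α) := b.2.symm
  -- permutations fixing `a` come from the subtype
  have hlift : ∀ g : Perm α, g a = a → g b = b → ∃ g' : Perm {x : α // x ≠ a}, g' b = b ∧ Perm.ofSubtype g' = g := by
    intro g hga hgb
    have h1 : ∀ x, x ≠ a ↔ g x ≠ a := by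
      intro x
      rw [not_iff_not]
      constructor
      · rintro rfl; exact hga
      · intro h; exact g.injective (h.trans hga.symm)
    refine ⟨g.subtypePerm (fun x => (h1 x).symm), Subtype.ext hgb, ?_⟩
    refine Perm.ofSubtype_subtypePerm _ fun x hx => ?_
    rintro rfl
    exact hx hga
  rcases h with h | h
  · exact hv (rel_core h5 hα ρ hno hab v fun g hga hgb => by
      obtain ⟨g', hg', rfl⟩ := hlift g hga hgb
      exact h g' hg')
  · refine hv (rel_core h5 hα (sgnTwist ρ) (fun s c hc v hv => hno s c hc v ?_) hab v fun g hga hgb => ?_)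
    · rwa [sgnTwist_even ρ (hc.sign hodd)] at hv
    · obtain ⟨g', hg', rfl⟩ := hlift g hga hgb
      have := h g' hg'
      have h2 : sg (Perm.ofSubtype g' : Perm α) = sg g' := by rw [sg, sg, Perm.sign_ofSubtype]
      rw [sgnTwist_apply, h2]
      change sg g' • (ρ.comp (Perm.ofSubtype : Perm {x : α // x ≠ a} →* Perm α)) g' v = v
      rw [this, smul_smul, sg_mul_self, one_smul]

end Cfsg.Agent.H127.An
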