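import Cfsg.Agent.H127.An.StepM
import Cfsg.Agent.H127.An.Rel
import Cfsg.Agent.H127.An.Ind
import Cfsg.Prelude.Def_Classical

/-!
# The row of the alternating groups (S4792), from the key lemma
-/

set_option autoImplicit false
set_option linter.unusedSectionVars false

namespace Cfsg.Agent.H127.An

open Equiv

/-- Bertrand's postulate in the form needed here -/
theorem exists_prime {n : ℕ} (h : 5 ≤ n) : ∃ p, p.Prime ∧ 5 ≤ p ∧ p ≤ n ∧ n < 2 * p := by
  rcases Nat.eq_or_lt_of_le h with rfl | h6
  · exact ⟨5, by norm_num, le_rfl, le_rfl, by norm_num⟩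
  obtain ⟨p, hp, h1, h2⟩ := Nat.exists_prime_lt_and_le_two_mul (n / 2) (by omega)
  refine ⟨p, hp, ?_, by omega, by omega⟩
  have h3 : 3 < p := by omega
  by_contra hcon
  have h4 : p = 4 := by omega
  rw [h4] at hp
  exact absurd hp (by norm_num)

/-- some `p`-cycle has a fixed vector if `p < n` -/
theorem exists_cyc_fix (hkey : KeyLemma) {p : ℕ} (hp : p.Prime) (h5 : 5 ≤ p) {α : Type} [Fintype α] [DecidableEq α]
    (hα : p < Fintype.card α) {V : Type} [AddCommGroup V] [Module ℂ V] [FiniteDimensional ℂ V] [Nontrivial V]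
    (ρ : Representation ℂ (Perm α) V) : ∃ (s : Finset α) (c : Perm α), Cyc p s c ∧ ∃ v : V, v ≠ 0 ∧ ρ c v = v := by
  obtain ⟨r, -, hr⟩ := Finset.exists_subset_card_eq (s := (Finset.univ : Finset α)) (n := p + 1) (by
    rw [Finset.card_univ]; exact hα)
  obtain ⟨s, c, hc, v, hv0, hv⟩ := rel hkey (α := {x : α // x ∈ r}) hp h5 (by rw [Fintype.card_coe, hr])
    (ρ.comp Perm.ofSubtype)
  exact ⟨_, _, hc.ofSubtype, v, hv0, hv⟩

theorem good_all (hkey : KeyLemma) (n : ℕ) : ∀ (α : Type) [Fintype α] [DecidableEq α], Fintype.card α = n → n ≠ 3 →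
    Good α := by
  induction n using Nat.strong_induction_on with
  | _ n ih =>
    intro α _ _ hα hn3
    rcases Nat.lt_or_ge 2 n with h2 | h2
    swap
    · exact good_small (by omega)
    rcases Nat.lt_or_ge n 5 with h5 | h5
    · have h4 : n = 4 := by omega
      subst h4
      exact good_four.congr (Fintype.equivFinOfCardEq hα).symm
    obtain ⟨p, hp, hp5, hpn, hn2⟩ := exists_prime h5
    intro V _ _ _ _ ρ
    have hcardc : ∀ (s : Finset α), s.card = p → Fintype.card {x : α // x ∉ s} = n - p := by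
      intro s hs
      rw [Fintype.card_subtype_compl, Fintype.card_coe, hs, hα]
    rcases Nat.eq_or_lt_of_le hpn with h | h
    · -- `n = p`
      by_cases hc : ∃ (c : Perm α) (v : V), Cyc (Fintype.card α) Finset.univ c ∧ v ≠ 0 ∧ ρ c v = v
      · obtain ⟨c, v, hc, hv0, hv⟩ := hc
        rw [hα, ← h] at hc
        have h1 := hcardc _ hc.card
        exact stepA hp (by omega) hc (by omega) (good_small (by omega)) ρ hv0 hv
      · refine stepP hkey (by rw [hα, ← h]; exact hp) (by omega) ρ fun c hc' v hv => ?_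
        by_contra hv0
        exact hc ⟨c, v, hc', hv0, hv⟩
    · rcases eq_or_ne (n - p) 3 with h3 | h3
      · exact stepM hkey hp hp5 (by omega) ρ
      · obtain ⟨s, c, hc, v, hv0, hv⟩ := exists_cyc_fix hkey hp hp5 (by rw [hα]; exact h) ρ
        have h1 := hcardc _ hc.card
        exact stepA hp (by omega) hc (by omega) (ih (n - p) (by omega) _ h1 h3) ρ hv0 hv

/-- **the row of the alternating groups, from the key lemma** -/
theorem row_alt_of_key (hkey : KeyLemma) {S : Type*} [Group S] [Finite S] (h : Cfsg.IsAlternating S) :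
    Cfsg.Agent.H430.Conj.Row S := by
  obtain ⟨n, hn, ⟨e⟩⟩ := h
  have h1 : Good (Fin n) := good_all hkey n (Fin n) (Fintype.card_fin n) (by omega)
  exact Cfsg.Agent.H430.Conj.Row.of_equiv e.symm (row_of_good h1)

end Cfsg.Agent.H127.An
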