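import Cfsg.Agent.H127.An.Tools

/-!
# The inductive steps (S4792, alternating groups)
-/

set_option autoImplicit false
set_option linter.unusedSectionVars false

namespace Cfsg.Agent.H127.An

open Equiv

section Basic

variable {α : Type} [Fintype α] [DecidableEq α] {p : ℕ} {s : Finset α} {c : Perm α}

theorem Cyc.ofSubtype {q : α → Prop} [DecidablePred q] [Fintype {x // q x}] {s' : Finset {x // q x}} {c : Perm {x // q x}}
    (h : Cyc p s' c) : Cyc p (s'.map (Function.Embedding.subtype q)) (Perm.ofSubtype c) where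
  card := by rw [Finset.card_map, h.card]
  on := by
    have happ : ∀ (n : ℤ) (x : {x // q x}), ((Perm.ofSubtype c) ^ n) (x : α) = ((c ^ n) x : {x // q x}) := by
      intro n x
      rw [← map_zpow]
      exact Perm.ofSubtype_apply_coe (c ^ n) x
    have happ1 : ∀ x : {x // q x}, Perm.ofSubtype c (x : α) = (c x : {x // q x}) := Perm.ofSubtype_apply_coe c
    rw [Finset.coe_map]
    refine ⟨⟨?_, (Perm.ofSubtype c).injective.injOn, ?_⟩, ?_⟩
    · rintro _ ⟨x, hx, rfl⟩
      refine ⟨c x, h.mem_iff.2 hx, (happ1 x).symm⟩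
    · rintro _ ⟨x, hx, rfl⟩
      refine ⟨(c⁻¹ x : {x // q x}), ⟨c⁻¹ x, ?_, rfl⟩, ?_⟩
      · rw [Finset.mem_coe, ← h.mem_iff]
        simpa using hx
      · rw [happ1]
        simp
    · rintro _ ⟨x, hx, rfl⟩ _ ⟨y, hy, rfl⟩
      obtain ⟨k, hk⟩ := h.on.2 hx hy
      refine ⟨k, ?_⟩
      show ((Perm.ofSubtype c) ^ k) (x : α) = y
      rw [happ k x, hk]
  supp := by
    intro x hx
    rw [Perm.mem_support] at hx
    by_cases hq : q x
    · refine Finset.mem_map.2 ⟨⟨x, hq⟩, h.supp (Perm.mem_support.2 fun h0 => hx ?_), rfl⟩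
      have := Perm.ofSubtype_apply_coe c (⟨x, hq⟩ : {x // q x})
      rw [h0] at this
      exact this
    · exact absurd (Perm.ofSubtype_apply_of_not_mem c hq) hx

/-- a permutation which fixes everything outside `q` comes from `Perm {x // q x}` -/
theorem exists_ofSubtype {q : α → Prop} [DecidablePred q] {g : Perm α} (h : ∀ x, ¬ q x → g x = x) :
    ∃ g' : Perm {x // q x}, Perm.ofSubtype g' = g := by
  have h1 : ∀ x, q (g x) ↔ q x := by
    intro x
    constructor
    · intro hx
      by_contra hcon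
      rw [h x hcon] at hx
      exact hcon hx
    · intro hx
      by_contra hcon
      have h2 := h _ hcon
      have h3 := g.injective h2
      rw [h3] at hcon
      exact hcon hx
  refine ⟨g.subtypePerm h1, Perm.ofSubtype_subtypePerm h1 fun x hx => ?_⟩
  by_contra hcon
  exact hx (h x hcon)

/-- a permutation supported outside `s` commutes with `c` -/
theorem Cyc.comm_of_fix (h : Cyc p s c) {g : Perm α} (hg : ∀ x ∈ s, g x = x) : Commute g c := by
  show g * c = c * g
  ext x
  rw [Perm.mul_apply, Perm.mul_apply]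
  by_cases hx : x ∈ s
  · rw [hg x hx, hg _ (h.mem_iff.2 hx)]
  · rw [h.fix hx]
    by_cases hgx : g x ∈ s
    · exfalso
      have h1 := hg _ hgx
      have h2 := g.injective h1
      rw [h2] at hgx
      exact hx hgx
    · rw [h.fix hgx]

theorem sign_of_mem {g : Perm α} (hg : g ∈ alternatingGroup α) : Perm.sign g = 1 := Perm.mem_alternatingGroup.1 hg

/-- decomposition of a permutation commuting with the cycle `c` -/
theorem Cyc.decomp (h : Cyc p s c) (hp : Odd p) (hp2 : 2 ≤ p) {g : Perm α} (hg : Commute g c) :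
    ∃ (n : ℕ) (g1 : Perm α), g = c ^ n * g1 ∧ (∀ x ∈ s, g1 x = x) ∧ Perm.sign g1 = Perm.sign g ∧ Commute g1 c := by
  obtain ⟨x, hx⟩ : s.Nonempty := by rw [← Finset.card_pos, h.card]; omega
  obtain ⟨n, -, hn⟩ := h.commute hg hx ((h.commute_mem hp2 hg).2 hx)
  have hc1 : Commute (c ^ n)⁻¹ c := ((Commute.refl c).pow_left n).inv_left
  refine ⟨n, (c ^ n)⁻¹ * g, by rw [mul_inv_cancel_left], fun y hy => ?_, ?_, hc1.mul_left hg⟩
  · rw [Perm.mul_apply, hn y hy]
    simp
  · rw [map_mul, map_inv, map_pow, h.sign hp, one_pow, inv_one, one_mul]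

end Basic

section Fix

variable {α : Type} [Fintype α] [DecidableEq α] {V : Type} [AddCommGroup V] [Module ℂ V]

/-- the fixed space of `c` -/
def fixS (ρ : Representation ℂ (Perm α) V) (c : Perm α) : Submodule ℂ V := LinearMap.ker (ρ c - 1)

theorem mem_fixS {ρ : Representation ℂ (Perm α) V} {c : Perm α} {v : V} : v ∈ fixS ρ c ↔ ρ c v = v := by
  rw [fixS, LinearMap.mem_ker, LinearMap.sub_apply, Module.End.one_apply, sub_eq_zero]

/-- a group commuting with `c` acts on the fixed space -/
def fixRep (ρ : Representation ℂ (Perm α) V) (c : Perm α) {H : Type} [Group H] (f : H →* Perm α)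
    (hf : ∀ h, Commute (f h) c) : Representation ℂ H (fixS ρ c) where
  toFun h := (ρ (f h)).restrict (p := fixS ρ c) (q := fixS ρ c) (fun v hv => by
    rw [mem_fixS] at hv ⊢
    rw [← Module.End.mul_apply, ← map_mul, ← (hf h).eq, map_mul, Module.End.mul_apply, hv])
  map_one' := by
    apply LinearMap.ext
    intro v
    apply Subtype.ext
    show ρ (f 1) v = v
    rw [map_one, map_one, Module.End.one_apply]
  map_mul' g h := by
    apply LinearMap.ext
    intro v
    apply Subtype.ext
    show ρ (f (g * h)) v = ρ (f g) (ρ (f h) v)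
    rw [map_mul, map_mul, Module.End.mul_apply]

theorem fixRep_apply (ρ : Representation ℂ (Perm α) V) (c : Perm α) {H : Type} [Group H] (f : H →* Perm α)
    (hf : ∀ h, Commute (f h) c) (h : H) (v : fixS ρ c) : (fixRep ρ c f hf h v : V) = ρ (f h) v := rfl

theorem pow_fix {ρ : Representation ℂ (Perm α) V} {c : Perm α} {v : V} (h : ρ c v = v) (n : ℕ) : ρ (c ^ n) v = v := by
  induction n with
  | zero => rw [pow_zero, map_one, Module.End.one_apply]
  | succ n ih => rw [pow_succ, map_mul, Module.End.mul_apply, h, ih]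

/-- **Lemma A'**: a vector fixed by the `p`-cycle `c` and by the centralizer of `y` in the alternating group of the
complement -/
theorem stepA' {p : ℕ} {s : Finset α} {c : Perm α} (hp : p.Prime) (hp2 : p ≠ 2) (hc : Cyc p s c)
    (hm : Fintype.card {x : α // x ∉ s} < p) (ρ : Representation ℂ (Perm α) V) {v : V} (hv0 : v ≠ 0)
    (hv : ρ c v = v) {y : Perm {x : α // x ∉ s}} (hy : y ∈ alternatingGroup {x : α // x ∉ s})
    (hw : ∀ g ∈ alternatingGroup {x : α // x ∉ s}, Commute g y → ρ (Perm.ofSubtype g) v = v) :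
    ∃ x ∈ alternatingGroup α, ∃ v : V, v ≠ 0 ∧ ∀ g ∈ alternatingGroup α, Commute g x → ρ g v = v := by
  have hodd : Odd p := hp.odd_of_ne_two hp2
  have hof : ∀ (h : Perm {x : α // x ∉ s}) (x : α), x ∈ s → Perm.ofSubtype h x = x := fun h x hx =>
    Perm.ofSubtype_apply_of_not_mem h (not_not.2 hx)
  have hcomm : ∀ h : Perm {x : α // x ∉ s}, Commute (Perm.ofSubtype h) c := fun h => hc.comm_of_fix (hof h)
  have hys : Perm.sign (Perm.ofSubtype y : Perm α) = 1 := by rw [Perm.sign_ofSubtype]; exact sign_of_mem hy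
  refine ⟨c * Perm.ofSubtype y, ?_, v, hv0, ?_⟩
  · rw [Perm.mem_alternatingGroup, map_mul, hc.sign hodd, hys, one_mul]
  intro g hg hgx
  -- `g` commutes with `c`
  set N := (Fintype.card {x : α // x ∉ s}).factorial with hN
  have hyN : y ^ N = 1 := by
    have := pow_card_eq_one (G := Perm {x : α // x ∉ s}) (x := y)
    rwa [Fintype.card_perm] at this
  have hxN : (c * Perm.ofSubtype y) ^ N = c ^ N := by
    rw [((hcomm y).symm).mul_pow, ← map_pow, hyN, map_one, mul_one]
  have hgN : Commute g (c ^ N) := by rw [← hxN]; exact hgx.pow_right N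
  have hgc : Commute g c := by
    have hcop : N.Coprime (orderOf c) := by
      have h1 : orderOf c ∣ p := orderOf_dvd_of_pow_eq_one hc.pow_eq_one
      refine Nat.Coprime.coprime_dvd_right h1 ?_
      rw [Nat.coprime_comm, hp.coprime_iff_not_dvd, hN, hp.dvd_factorial]
      omega
    obtain ⟨k, hk⟩ := exists_pow_eq_self_of_coprime hcop
    rw [← hk]
    exact hgN.pow_right k
  obtain ⟨n, g1, rfl, hg1, hsg, hg1c⟩ := hc.decomp hodd hp.two_le hgc
  obtain ⟨g', rfl⟩ := exists_ofSubtype (q := fun x => x ∉ s) (g := g1) (fun x hx => hg1 x (not_not.1 hx))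
  have hg'e : g' ∈ alternatingGroup {x : α // x ∉ s} := by
    rw [Perm.mem_alternatingGroup, ← Perm.sign_ofSubtype, hsg]
    exact sign_of_mem hg
  have hg1x : Commute (Perm.ofSubtype g' : Perm α) (Perm.ofSubtype y) := by
    have e1 : (Perm.ofSubtype g' : Perm α) = (c ^ n)⁻¹ * (c ^ n * Perm.ofSubtype g') := by rw [inv_mul_cancel_left]
    have e2 : (Perm.ofSubtype y : Perm α) = c⁻¹ * (c * Perm.ofSubtype y) := by rw [inv_mul_cancel_left]
    have e3 : Commute (Perm.ofSubtype g' : Perm α) (c * Perm.ofSubtype y) := by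
      rw [e1]
      refine Commute.mul_left ?_ hgx
      refine Commute.inv_left (Commute.mul_right ((Commute.refl c).pow_left n) ?_)
      exact ((hcomm y).symm).pow_left n
    rw [e2]
    exact Commute.mul_right hg1c.inv_right e3
  have hg'y : Commute g' y := by
    have := hg1x.eq
    rw [← map_mul, ← map_mul] at this
    exact Perm.ofSubtype_injective this
  rw [map_mul, Module.End.mul_apply, hw g' hg'e hg'y, pow_fix hv]

/-- **Lemma A**: a fixed vector of the `p`-cycle `c` and a good complement -/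
theorem stepA {p : ℕ} {s : Finset α} {c : Perm α} (hp : p.Prime) (hp2 : p ≠ 2) (hc : Cyc p s c)
    (hm : Fintype.card {x : α // x ∉ s} < p) (hG : Good {x : α // x ∉ s}) [FiniteDimensional ℂ V]
    (ρ : Representation ℂ (Perm α) V) {v : V} (hv0 : v ≠ 0) (hv : ρ c v = v) :
    ∃ x ∈ alternatingGroup α, ∃ v : V, v ≠ 0 ∧ ∀ g ∈ alternatingGroup α, Commute g x → ρ g v = v := by
  have hof : ∀ (h : Perm {x : α // x ∉ s}) (x : α), x ∈ s → Perm.ofSubtype h x = x := fun h x hx =>
    Perm.ofSubtype_apply_of_not_mem h (not_not.2 hx)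
  have hcomm : ∀ h : Perm {x : α // x ∉ s}, Commute (Perm.ofSubtype h) c := fun h => hc.comm_of_fix (hof h)
  have hnt : Nontrivial (fixS ρ c) :=
    ⟨⟨⟨v, mem_fixS.2 hv⟩, 0, fun h => hv0 (congrArg Subtype.val h)⟩⟩
  obtain ⟨y, hy, w, hw0, hw⟩ := hG (fixS ρ c) (fixRep ρ c Perm.ofSubtype hcomm)
  exact stepA' hp hp2 hc hm ρ (v := w) (fun h => hw0 (Subtype.ext h)) (mem_fixS.1 w.2) hy fun g hg hgy =>
    congrArg Subtype.val (hw g hg hgy)

/-- an equivariant function on the points -/
theorem stepB (hcard : 5 ≤ Fintype.card α) (ρ : Representation ℂ (Perm α) V) {a : α} {v : V} (hv0 : v ≠ 0)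
    (hv : ∀ g : Perm α, g a = a → ρ g v = v) :
    ∃ x ∈ alternatingGroup α, ∃ v : V, v ≠ 0 ∧ ∀ g ∈ alternatingGroup α, Commute g x → ρ g v = v := by
  obtain ⟨w, hwa, hw, -⟩ := exists_equiv_fn ρ a v hv
  obtain ⟨s, hs, hsum⟩ : ∃ s : Finset α, s.card = 3 ∧ ∑ t ∈ s, w t ≠ 0 := by
    by_contra hcon
    push Not at hcon
    have h3 : ∀ i j k : α, i ≠ j → i ≠ k → j ≠ k → w i + w j + w k = 0 := by
      intro i j k hij hik hjk
      have := hcon {i, j, k} (Finset.card_eq_three.2 ⟨i, j, k, hij, hik, hjk, rfl⟩)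
      rw [Finset.sum_insert (by simp [hij, hik]), Finset.sum_insert (by simp [hjk]), Finset.sum_singleton] at this
      rw [← this]
      abel
    have h4 : ∀ k l : α, w k = w l := by
      intro k l
      rcases eq_or_ne k l with rfl | hkl
      · rfl
      obtain ⟨i, hi⟩ : ∃ i, i ∉ ({k, l} : Finset α) := by
        by_contra hcon
        push Not at hcon
        have := Finset.card_le_card (fun x _ => hcon x : (Finset.univ : Finset α) ⊆ {k, l})
        rw [Finset.card_univ] at this
        have := Finset.card_le_two (a := k) (b := l)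
        omega
      obtain ⟨j, hj⟩ : ∃ j, j ∉ ({k, l, i} : Finset α) := by
        by_contra hcon
        push Not at hcon
        have := Finset.card_le_card (fun x _ => hcon x : (Finset.univ : Finset α) ⊆ {k, l, i})
        rw [Finset.card_univ] at this
        have := Finset.card_le_three (a := k) (b := l) (c := i)
        omega
      simp only [Finset.mem_insert, Finset.mem_singleton, not_or] at hi hj
      have e1 := h3 i j k (Ne.symm hj.2.2) hi.1 hj.1
      have e2 := h3 i j l (Ne.symm hj.2.2) hi.2 hj.2.1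
      have e3 := e1.trans e2.symm
      exact add_left_cancel e3
    obtain ⟨b, hb⟩ : ∃ b, b ≠ a := by
      have : Nontrivial α := Fintype.one_lt_card_iff_nontrivial.1 (by omega)
      exact exists_ne a
    obtain ⟨d, hd⟩ : ∃ j, j ∉ ({a, b} : Finset α) := by
      by_contra hcon
      push Not at hcon
      have := Finset.card_le_card (fun x _ => hcon x : (Finset.univ : Finset α) ⊆ {a, b})
      rw [Finset.card_univ] at this
      have := Finset.card_le_two (a := a) (b := b)
      omega
    simp only [Finset.mem_insert, Finset.mem_singleton, not_or] at hd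
    have e1 := h3 a b d (Ne.symm hb) (Ne.symm hd.1) (Ne.symm hd.2)
    rw [h4 b a, h4 d a, hwa] at e1
    apply hv0
    have e2 : (3 : ℂ) • v = 0 := by
      rw [← e1]
      module
    exact (smul_eq_zero.1 e2).resolve_left (by norm_num)
  obtain ⟨x, hx⟩ := exists_cyc s
  rw [hs] at hx
  refine ⟨x, Perm.mem_alternatingGroup.2 (hx.sign (by decide)), _, hsum, fun g _ hgx => ?_⟩
  rw [map_sum]
  have h1 : ∀ t ∈ s, ρ g (w t) = w (g t) := fun t _ => hw g t
  rw [Finset.sum_congr rfl h1]
  refine Finset.sum_bij (fun y _ => g y) (fun y hy => (hx.commute_mem (by norm_num) hgx).2 hy)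
    (fun y _ z _ h => g.injective h) (fun y hy => ⟨g⁻¹ y, ?_, by simp⟩) (fun y _ => rfl)
  rw [← hx.commute_mem (by norm_num) hgx]
  simpa using hy

/-- the conclusion is invariant under the twist by the sign -/
theorem of_sgnTwist (ρ : Representation ℂ (Perm α) V)
    (h : ∃ x ∈ alternatingGroup α, ∃ v : V, v ≠ 0 ∧ ∀ g ∈ alternatingGroup α, Commute g x → sgnTwist ρ g v = v) :
    ∃ x ∈ alternatingGroup α, ∃ v : V, v ≠ 0 ∧ ∀ g ∈ alternatingGroup α, Commute g x → ρ g v = v := by
  obtain ⟨x, hx, v, hv, h⟩ := h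
  refine ⟨x, hx, v, hv, fun g hg hgx => ?_⟩
  have := h g hg hgx
  rwa [sgnTwist_even ρ (sign_of_mem hg)] at this

/-- the case `n = p` without fixed vectors of the `p`-cycles -/
theorem stepP (hkey : KeyLemma) (hp : (Fintype.card α).Prime) (h5 : 5 ≤ Fintype.card α) [FiniteDimensional ℂ V]
    [Nontrivial V] (ρ : Representation ℂ (Perm α) V)
    (hc : ∀ c : Perm α, Cyc (Fintype.card α) Finset.univ c → ∀ v, ρ c v = v → v = 0) :
    ∃ x ∈ alternatingGroup α, ∃ v : V, v ≠ 0 ∧ ∀ g ∈ alternatingGroup α, Commute g x → ρ g v = v := by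
  obtain ⟨a, v, hv0, h | h⟩ := key_type hkey hp h5 ρ hc
  · exact stepB h5 ρ hv0 h
  · refine of_sgnTwist ρ (stepB h5 (sgnTwist ρ) hv0 (a := a) fun g hg => ?_)
    rw [sgnTwist_apply, h g hg, smul_smul, sg_mul_self, one_smul]

end Fix

end Cfsg.Agent.H127.An
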