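import Cfsg.Agent.H127.An.Three

/-!
# The case `n = p + 3` (S4792, alternating groups)
-/

set_option autoImplicit false
set_option linter.unusedSectionVars false

namespace Cfsg.Agent.H127.An

open Equiv

section Basic

variable {α : Type} [Fintype α] [DecidableEq α] {p : ℕ} {s : Finset α} {c : Perm α}

theorem Cyc.ne (h : Cyc p s c) (hp : 2 ≤ p) {x : α} (hx : x ∈ s) : c x ≠ x := by
  intro h0
  have h2 := (h.on.pow_apply_eq hx (n := 1)).1 (by rwa [pow_one])
  rw [h.card] at h2
  have := Nat.le_of_dvd one_pos h2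
  omega

theorem Cyc.support_eq (h : Cyc p s c) (hp : 2 ≤ p) : c.support = s := by
  apply Finset.Subset.antisymm h.supp
  intro x hx
  rw [Perm.mem_support]
  exact h.ne hp hx

theorem Cyc.isCycle (h : Cyc p s c) (hp : 2 ≤ p) : c.IsCycle := by
  rw [Perm.isCycle_iff_exists_isCycleOn]
  refine ⟨s, ?_, h.on, fun x hx => h.supp (Perm.mem_support.2 hx)⟩
  rw [Finset.nontrivial_coe, ← Finset.one_lt_card_iff_nontrivial, h.card]
  omega

theorem Cyc.sign_even (h : Cyc p s c) (hp : 2 ≤ p) (he : Even p) : Perm.sign c = -1 := by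
  rw [(h.isCycle hp).sign, h.support_eq hp, h.card, he.neg_one_pow]

/-- an even permutation moving only the points of the three-cycle `d` is a power of `d` -/
theorem Cyc.eq_pow (h : Cyc 3 s c) {g : Perm α} (hg : ∀ x, x ∉ s → g x = x) (hs : Perm.sign g = 1) :
    ∃ n : ℕ, g = c ^ n := by
  obtain ⟨x, hx⟩ : s.Nonempty := by rw [← Finset.card_pos, h.card]; omega
  have hgx : g x ∈ s := by
    by_contra hcon
    have h1 := g.injective (hg _ hcon)
    rw [h1] at hcon
    exact hcon hx
  obtain ⟨n, -, hn⟩ := h.exists_pow hx hgx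
  refine ⟨n, ?_⟩
  set g1 : Perm α := (c ^ n)⁻¹ * g with hg1
  have h1 : g1 x = x := by
    rw [hg1, Perm.mul_apply, ← hn]
    simp
  have h2 : ∀ y, y ∉ s → g1 y = y := by
    intro y hy
    rw [hg1, Perm.mul_apply, hg y hy, Perm.inv_eq_iff_eq, h.pow_fix hy]
  have h3 : Perm.sign g1 = 1 := by
    rw [hg1, map_mul, map_inv, map_pow, h.sign (by decide), hs, one_pow, inv_one, one_mul]
  have h4 : g1.support ⊆ s.erase x := by
    intro y hy
    rw [Perm.mem_support] at hy
    rw [Finset.mem_erase]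
    refine ⟨?_, ?_⟩
    · rintro rfl; exact hy h1
    · by_contra hcon; exact hy (h2 y hcon)
  have h5 : g1.support.card ≤ 2 := by
    refine (Finset.card_le_card h4).trans ?_
    rw [Finset.card_erase_of_mem hx, h.card]
  have h6 : g1 = 1 := by
    rcases Nat.lt_or_ge g1.support.card 2 with h7 | h7
    · exact Perm.card_support_le_one.1 (by omega)
    · have h8 := Perm.card_support_eq_two.1 (le_antisymm h5 h7)
      rw [h8.sign_eq] at h3
      exact absurd h3 (by decide)
  rw [hg1] at h6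
  rw [← mul_one (c ^ n), ← h6, mul_inv_cancel_left]

end Basic

section StepM

variable {α : Type} [Fintype α] [DecidableEq α] {V : Type} [AddCommGroup V] [Module ℂ V]

/-- the permutation `x = d z₁ z₂` -/
theorem exists_x {p : ℕ} (h5 : 5 ≤ p) (hodd : Odd p) {t : Finset α} (hα : Fintype.card α = p + 3) {d : Perm α}
    (hd : Cyc 3 t d) {a : α} (ha : a ∉ t) :
    ∃ x : Perm α, Perm.sign x = 1 ∧ (∀ y, x y = y ↔ y = a) ∧ (∀ y ∈ t, x y = d y) ∧
      ∀ y, (x ^ 3) y = y ↔ y ∈ t ∨ y = a := by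
  -- the complement of `t ∪ {a}`
  set r : Finset α := (insert a t)ᶜ with hr
  have hrc : r.card = p - 1 := by
    rw [hr, Finset.card_compl, Finset.card_insert_of_notMem ha, hd.card, hα]
    omega
  have hmr : ∀ y, y ∈ r ↔ y ≠ a ∧ y ∉ t := by
    intro y
    rw [hr, Finset.mem_compl, Finset.mem_insert, not_or]
  obtain ⟨u, hur, huc⟩ := Finset.exists_subset_card_eq (s := r) (n := 2) (by omega)
  set u' : Finset α := r \ u with hu'
  have hu'c : u'.card = p - 3 := by
    rw [hu', Finset.card_sdiff_of_subset hur, hrc, huc]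
    omega
  have hp3 : Even (p - 3) := by
    obtain ⟨k, hk⟩ := hodd
    exact ⟨k - 1, by omega⟩
  have hp3' : 2 ≤ p - 3 := by omega
  obtain ⟨z1, hz1⟩ := exists_cyc u
  obtain ⟨z2, hz2⟩ := exists_cyc u'
  rw [huc] at hz1
  rw [hu'c] at hz2
  have htu : ∀ y ∈ t, y ∉ u := fun y hy hyu => ((hmr y).1 (hur hyu)).2 hy
  have htu' : ∀ y ∈ t, y ∉ u' := fun y hy hyu => ((hmr y).1 (Finset.mem_sdiff.1 hyu).1).2 hy
  have huu' : ∀ y ∈ u, y ∉ u' := fun y hy hyu => (Finset.mem_sdiff.1 hyu).2 hy
  have hau : a ∉ u := fun h => ((hmr a).1 (hur h)).1 rfl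
  have hau' : a ∉ u' := fun h => ((hmr a).1 (Finset.mem_sdiff.1 h).1).1 rfl
  have hcov : ∀ y, y = a ∨ y ∈ t ∨ y ∈ u ∨ y ∈ u' := by
    intro y
    by_cases h1 : y = a
    · exact Or.inl h1
    by_cases h2 : y ∈ t
    · exact Or.inr (Or.inl h2)
    by_cases h3 : y ∈ u
    · exact Or.inr (Or.inr (Or.inl h3))
    · exact Or.inr (Or.inr (Or.inr (Finset.mem_sdiff.2 ⟨(hmr y).2 ⟨h1, h2⟩, h3⟩)))
  set x : Perm α := d * (z1 * z2) with hx
  -- powers of `x`
  have hcm1 : Commute z1 z2 := (hz1.comm_of_fix (g := z2) fun y hy => hz2.fix (huu' y hy)).symm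
  have hcm2 : Commute (z1 * z2) d := hd.comm_of_fix fun y hy => by
    rw [Perm.mul_apply, hz2.fix (htu' y hy), hz1.fix (htu y hy)]
  have hpow : ∀ n : ℕ, x ^ n = d ^ n * (z1 ^ n * z2 ^ n) := by
    intro n
    rw [hx, (hcm2.symm).mul_pow, hcm1.mul_pow]
  have hz1u : ∀ (n : ℕ) (y : α), y ∈ u → (z1 ^ n) y ∈ u := by
    intro n y hy
    induction n with
    | zero => exact hy
    | succ n ih => rw [pow_succ', Perm.mul_apply]; exact hz1.mem_iff.2 ih
  have hz2u : ∀ (n : ℕ) (y : α), y ∈ u' → (z2 ^ n) y ∈ u' := by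
    intro n y hy
    induction n with
    | zero => exact hy
    | succ n ih => rw [pow_succ', Perm.mul_apply]; exact hz2.mem_iff.2 ih
  have ha' : ∀ n : ℕ, (x ^ n) a = a := by
    intro n
    rw [hpow, Perm.mul_apply, Perm.mul_apply, hz2.pow_fix hau', hz1.pow_fix hau, hd.pow_fix ha]
  have ht' : ∀ (n : ℕ) (y : α), y ∈ t → (x ^ n) y = (d ^ n) y := by
    intro n y hy
    rw [hpow, Perm.mul_apply, Perm.mul_apply, hz2.pow_fix (htu' y hy), hz1.pow_fix (htu y hy)]
  have hu1 : ∀ (n : ℕ) (y : α), y ∈ u → (x ^ n) y = (z1 ^ n) y := by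
    intro n y hy
    rw [hpow, Perm.mul_apply, Perm.mul_apply, hz2.pow_fix (huu' y hy), hd.pow_fix]
    intro h
    exact htu _ h (hz1u n y hy)
  have hu2 : ∀ (n : ℕ) (y : α), y ∈ u' → (x ^ n) y = (z2 ^ n) y := by
    intro n y hy
    rw [hpow, Perm.mul_apply, Perm.mul_apply, hz1.pow_fix, hd.pow_fix]
    · intro h
      exact htu' _ h (hz2u n y hy)
    · intro h
      exact huu' _ h (hz2u n y hy)
  refine ⟨x, ?_, fun y => ?_, fun y hy => ?_, fun y => ?_⟩
  · rw [hx, map_mul, map_mul, hd.sign (by decide), hz1.sign_even le_rfl (by decide), hz2.sign_even hp3' hp3]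
    decide
  · constructor
    · intro h
      have h1 : (x ^ 1) y = y := by rwa [pow_one]
      rcases hcov y with hy | hy | hy | hy
      · exact hy
      · rw [ht' 1 y hy, pow_one] at h1
        exact absurd h1 (hd.ne (by norm_num) hy)
      · rw [hu1 1 y hy, pow_one] at h1
        exact absurd h1 (hz1.ne le_rfl hy)
      · rw [hu2 1 y hy, pow_one] at h1
        exact absurd h1 (hz2.ne hp3' hy)
    · rintro rfl
      have := ha' 1
      rwa [pow_one] at this
  · have := ht' 1 y hy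
    rwa [pow_one, pow_one] at this
  · constructor
    · intro h
      rcases hcov y with hy | hy | hy | hy
      · exact Or.inr hy
      · exact Or.inl hy
      · rw [hu1 3 y hy, hz1.on.pow_apply_eq hy, huc] at h
        exact absurd h (by norm_num)
      · rw [hu2 3 y hy, hz2.on.pow_apply_eq hy, hu'c] at h
        exfalso
        have := Nat.le_of_dvd (by norm_num) h
        obtain ⟨k, hk⟩ := hp3
        have h23 : p - 3 = 2 := by omega
        rw [h23] at h
        omega
    · rintro (hy | rfl)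
      · rw [ht' 3 y hy, hd.pow_eq_one, Perm.one_apply]
      · exact ha' 3

/-- **Case `n = p + 3`** -/
theorem stepM (hkey : KeyLemma) {p : ℕ} (hp : p.Prime) (h5 : 5 ≤ p) (hα : Fintype.card α = p + 3)
    [FiniteDimensional ℂ V] [Nontrivial V] (ρ : Representation ℂ (Perm α) V) :
    ∃ x ∈ alternatingGroup α, ∃ v : V, v ≠ 0 ∧ ∀ g ∈ alternatingGroup α, Commute g x → ρ g v = v := by
  have hodd : Odd p := hp.odd_of_ne_two (by omega)
  by_cases hcase : ∃ (s : Finset α) (c : Perm α) (v : V), Cyc p s c ∧ v ≠ 0 ∧ ρ c v = v ∧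
      ∀ g ∈ alternatingGroup {x : α // x ∉ s}, ρ (Perm.ofSubtype g) v = v
  · obtain ⟨s, c, v, hc, hv0, hv, hg⟩ := hcase
    have hcard : Fintype.card {x : α // x ∉ s} = 3 := by
      rw [Fintype.card_subtype_compl, Fintype.card_coe, hc.card, hα, Nat.add_sub_cancel_left]
    exact stepA' hp (by omega) hc (by omega) ρ hv0 hv (one_mem _) fun g hg' _ => hg g hg'
  obtain ⟨t, d, hd, v0, hv00, hv0⟩ := exists_three (α := α) (by omega) ρ
  -- the representation on the fixed space of `d`
  have hof : ∀ (h : Perm {x : α // x ∉ t}) (x : α), x ∈ t → Perm.ofSubtype h x = x := fun h x hx =>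
    Perm.ofSubtype_apply_of_not_mem h (not_not.2 hx)
  have hcomm : ∀ h : Perm {x : α // x ∉ t}, Commute (Perm.ofSubtype h) d := fun h => hd.comm_of_fix (hof h)
  have hnt : Nontrivial (fixS ρ d) :=
    ⟨⟨⟨v0, mem_fixS.2 hv0⟩, 0, fun h => hv00 (congrArg Subtype.val h)⟩⟩
  have hcard : Fintype.card {x : α // x ∉ t} = p := by
    rw [Fintype.card_subtype_compl, Fintype.card_coe, hd.card, hα, Nat.add_sub_cancel]
  obtain ⟨a, y, hy0, hy⟩ := key_type hkey (α := {x : α // x ∉ t}) (by rw [hcard]; exact hp) (by rw [hcard]; exact h5)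
    (fixRep ρ d Perm.ofSubtype hcomm) (by
      intro c hc v hv
      rw [hcard] at hc
      by_contra hv0
      apply hcase
      refine ⟨_, _, (v : V), hc.ofSubtype, fun h => hv0 (Subtype.ext h), congrArg Subtype.val hv, fun g hg => ?_⟩
      have hgfix : ∀ x, x ∉ t → Perm.ofSubtype g x = x := by
        intro x hx
        refine Perm.ofSubtype_apply_of_not_mem g ?_
        rw [not_not]
        exact Finset.mem_map.2 ⟨⟨x, hx⟩, Finset.mem_univ _, rfl⟩
      obtain ⟨n, hn⟩ := hd.eq_pow (g := Perm.ofSubtype g) hgfix (by rw [Perm.sign_ofSubtype]; exact sign_of_mem hg)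
      rw [hn, pow_fix (mem_fixS.1 v.2)])
  obtain ⟨x, hxs, hx1, hxt, hx3⟩ := exists_x h5 hodd hα hd a.2
  refine ⟨x, Perm.mem_alternatingGroup.2 hxs, y, fun h => hy0 (Subtype.ext h), fun g hg hgx => ?_⟩
  have hxg : ∀ (n : ℕ) (z : α), (x ^ n) (g z) = g ((x ^ n) z) := by
    intro n z
    have := congrArg (fun f : Perm α => f z) (hgx.pow_right n).eq
    exact this.symm
  have hga : g a = a := by
    rw [← hx1]
    have := hxg 1 a
    rw [pow_one, (hx1 a).2 rfl] at this
    exact this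
  have hgt : ∀ z, z ∈ t → g z ∈ t := by
    intro z hz
    have h1 : (x ^ 3) (g z) = g z := by rw [hxg, (hx3 z).2 (Or.inl hz)]
    rcases (hx3 _).1 h1 with h2 | h2
    · exact h2
    · exfalso
      have h3 : z = a := g.injective (h2.trans hga.symm)
      rw [h3] at hz
      exact a.2 hz
  -- on `t` the permutation `g` is a power of `d`
  obtain ⟨z0, hz0⟩ : t.Nonempty := by rw [← Finset.card_pos, hd.card]; omega
  obtain ⟨n, -, hn⟩ := hd.exists_pow hz0 (hgt z0 hz0)
  have hdt : ∀ (m : ℕ) (z : α), z ∈ t → (d ^ m) z ∈ t := by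
    intro m z hz
    induction m with
    | zero => exact hz
    | succ m ih => rw [pow_succ', Perm.mul_apply]; exact hd.mem_iff.2 ih
  have hxd : ∀ (m : ℕ) (z : α), z ∈ t → (x ^ m) z = (d ^ m) z := by
    intro m z hz
    induction m with
    | zero => rfl
    | succ m ih =>
      rw [pow_succ', pow_succ', Perm.mul_apply, Perm.mul_apply, ih, hxt _ (hdt m z hz)]
  have hgd : ∀ z ∈ t, g z = (d ^ n) z := by
    intro z hz
    obtain ⟨m, -, rfl⟩ := hd.exists_pow hz0 hz
    rw [← hxd m z0 hz0, ← hxg, ← hn, hxd m z0 hz0, hxd m _ (hdt n z0 hz0), ← Perm.mul_apply, ← Perm.mul_apply,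
      ← pow_add, ← pow_add, add_comm]
  obtain ⟨g', hg'⟩ := exists_ofSubtype (q := fun x => x ∉ t) (g := (d ^ n)⁻¹ * g) (fun z hz => by
    rw [not_not] at hz
    rw [Perm.mul_apply, Perm.inv_eq_iff_eq]
    exact hgd z hz)
  have hg'a : g' a = a := by
    apply Subtype.ext
    have h1 := Perm.ofSubtype_apply_coe g' a
    rw [← h1, hg', Perm.mul_apply, hga, Perm.inv_eq_iff_eq, hd.pow_fix a.2]
  have hg's : Perm.sign g' = 1 := by
    rw [← Perm.sign_ofSubtype, hg', map_mul, map_inv, map_pow, hd.sign (by decide), sign_of_mem hg, one_pow, inv_one,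
      one_mul]
  have hfix : ρ (Perm.ofSubtype g') y = (y : V) := by
    rcases hy with h | h
    · exact congrArg Subtype.val (h g' hg'a)
    · have h1 := h g' hg'a
      rw [sg_even hg's, one_smul] at h1
      exact congrArg Subtype.val h1
  have e : g = d ^ n * Perm.ofSubtype g' := by rw [hg', mul_inv_cancel_left]
  rw [e, map_mul, Module.End.mul_apply, hfix, pow_fix (mem_fixS.1 y.2)]

end StepM

end Cfsg.Agent.H127.An
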