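import Cfsg.Agent.H127.An.Step

/-!
# Three-cycles and the small degrees (S4792, alternating groups)
-/

set_option autoImplicit false
set_option linter.unusedSectionVars false

namespace Cfsg.Agent.H127.An

open Equiv

section Via

variable {α β : Type} [Fintype α] [DecidableEq α] [Fintype β] [DecidableEq β] {p : ℕ}

theorem Cyc.via {s' : Finset β} {c : Perm β} (h : Cyc p s' c) (f : β ↪ α) :
    Cyc p (s'.map f) (Perm.viaEmbeddingHom f c) where
  card := by rw [Finset.card_map, h.card]
  on := by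
    have happ : ∀ (n : ℤ) (x : β), ((Perm.viaEmbeddingHom f c) ^ n) (f x) = f ((c ^ n) x) := by
      intro n x
      rw [← map_zpow]
      exact Perm.viaEmbedding_apply (c ^ n) f x
    have happ1 : ∀ x : β, Perm.viaEmbeddingHom f c (f x) = f (c x) := Perm.viaEmbedding_apply c f
    rw [Finset.coe_map]
    refine ⟨⟨?_, (Perm.viaEmbeddingHom f c).injective.injOn, ?_⟩, ?_⟩
    · rintro _ ⟨x, hx, rfl⟩
      refine ⟨c x, h.mem_iff.2 hx, (happ1 x).symm⟩
    · rintro _ ⟨x, hx, rfl⟩
      refine ⟨f (c⁻¹ x), ⟨c⁻¹ x, ?_, rfl⟩, ?_⟩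
      · rw [Finset.mem_coe, ← h.mem_iff]
        simpa using hx
      · rw [happ1]
        simp
    · rintro _ ⟨x, hx, rfl⟩ _ ⟨y, hy, rfl⟩
      obtain ⟨k, hk⟩ := h.on.2 hx hy
      refine ⟨k, ?_⟩
      rw [happ k x, hk]
  supp := by
    intro x hx
    rw [Perm.mem_support] at hx
    by_cases hq : x ∈ Set.range f
    · obtain ⟨y, rfl⟩ := hq
      refine Finset.mem_map.2 ⟨y, h.supp (Perm.mem_support.2 fun h0 => hx ?_), rfl⟩
      have := Perm.viaEmbedding_apply c f y
      rw [h0] at this
      exact this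
    · exact absurd (Perm.viaEmbedding_apply_of_notMem c f x hq) hx

theorem via_swap (f : β ↪ α) (i j : β) : Perm.viaEmbeddingHom f (swap i j) = swap (f i) (f j) := by
  ext x
  by_cases hq : x ∈ Set.range f
  · obtain ⟨y, rfl⟩ := hq
    rw [Perm.viaEmbeddingHom_apply, Perm.viaEmbedding_apply]
    rcases eq_or_ne y i with rfl | hi
    · rw [swap_apply_left, swap_apply_left]
    rcases eq_or_ne y j with rfl | hj
    · rw [swap_apply_right, swap_apply_right]
    rw [swap_apply_of_ne_of_ne hi hj, swap_apply_of_ne_of_ne (f.injective.ne hi) (f.injective.ne hj)]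
  · rw [Perm.viaEmbeddingHom_apply, Perm.viaEmbedding_apply_of_notMem _ f x hq, swap_apply_of_ne_of_ne]
    · rintro rfl; exact hq ⟨i, rfl⟩
    · rintro rfl; exact hq ⟨j, rfl⟩

theorem cyc_of_isCycle {c : Perm α} (h : c.IsCycle) : Cyc c.support.card c.support c where
  card := rfl
  on := by
    rw [Perm.coe_support_eq_set_support]
    exact h.isCycleOn
  supp := Finset.Subset.refl _

end Via

section Four

variable {V : Type} [AddCommGroup V] [Module ℂ V]

/-- the double transpositions of four points -/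
def dt (i : Fin 3) : Perm (Fin 4) := ![swap 0 1 * swap 2 3, swap 0 2 * swap 1 3, swap 0 3 * swap 1 2] i

/-- a three-cycle -/
def d3 : Perm (Fin 4) := swap 1 2 * swap 1 3

theorem dt_sq : ∀ i, dt i * dt i = 1 := by decide
theorem dt_mul : ∀ i, dt i * dt (i + 1) = dt (i + 2) := by decide
theorem dt_comm : ∀ i j, dt i * dt j = dt j * dt i := by decide
theorem d3_conj : ∀ i, dt (i + 1) * d3 = d3 * dt i ∨ dt (i + 2) * d3 = d3 * dt i := by decide
theorem d3_pow : d3 * d3 * d3 = 1 := by decide
theorem d3_cases : (∀ i, dt i * d3 = d3 * dt (i + 1)) ∨ (∀ i, dt i * d3 = d3 * dt (i + 2)) := by decide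

/-- if the three-cycles have no fixed vector then the double transpositions act trivially -/
theorem dt_trivial (ρ : Representation ℂ (Perm (Fin 4)) V) (h : ∀ v, ρ d3 v = v → v = 0) (i : Fin 3) :
    ρ (dt i) = 1 := by
  -- there is no common eigenvector with the eigenvalue `1` for `dt j`, `-1` for the others
  have key : ∀ (j : Fin 3) (u : V), ρ (dt j) u = u → ρ (dt (j + 1)) u = -u → ρ (dt (j + 2)) u = -u → u = 0 := by
    intro j u h0 h1 h2
    have hS := h (u + ρ d3 u + ρ d3 (ρ d3 u)) (by
      rw [map_add, map_add]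
      have e : ρ d3 (ρ d3 (ρ d3 u)) = u := by
        rw [← Module.End.mul_apply, ← Module.End.mul_apply, ← map_mul, ← map_mul, d3_pow, map_one,
          Module.End.one_apply]
      rw [e]
      abel)
    have h1' : ρ (dt j) (ρ d3 u) = - ρ d3 u := by
      rw [← Module.End.mul_apply, ← map_mul]
      rcases d3_cases with hd | hd
      · rw [hd j, map_mul, Module.End.mul_apply, h1, map_neg]
      · rw [hd j, map_mul, Module.End.mul_apply, h2, map_neg]
    have h2' : ρ (dt j) (ρ d3 (ρ d3 u)) = - ρ d3 (ρ d3 u) := by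
      rw [← Module.End.mul_apply, ← map_mul]
      rcases d3_cases with hd | hd
      · rw [hd j, map_mul, Module.End.mul_apply, ← Module.End.mul_apply (ρ (dt (j + 1))), ← map_mul, hd (j + 1),
          map_mul, Module.End.mul_apply]
        have : j + 1 + 1 = j + 2 := by rw [add_assoc]; rfl
        rw [this, h2, map_neg, map_neg]
      · rw [hd j, map_mul, Module.End.mul_apply, ← Module.End.mul_apply (ρ (dt (j + 2))), ← map_mul, hd (j + 2),
          map_mul, Module.End.mul_apply]
        have : j + 2 + 2 = j + 1 := by rw [add_assoc]; rfl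
        rw [this, h1, map_neg, map_neg]
    have h3 := congrArg (ρ (dt j)) hS
    rw [map_add, map_add, map_zero, h0, h1', h2'] at h3
    have h4 : (2 : ℂ) • u = 0 := by
      have : (2 : ℂ) • u = (u + ρ d3 u + ρ d3 (ρ d3 u)) + (u + -ρ d3 u + -ρ d3 (ρ d3 u)) := by module
      rw [this, hS, h3, add_zero]
    exact (smul_eq_zero.1 h4).resolve_left two_ne_zero
  -- there is no common eigenvector with eigenvalue `-1` for `dt i` and `ε` for `dt (i + 1)`
  have key2 : ∀ (u : V), ρ (dt i) u = -u → u = 0 := by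
    intro u hu
    have hsq : ρ (dt (i + 1)) (ρ (dt (i + 1)) u) = u := by
      rw [← Module.End.mul_apply, ← map_mul, dt_sq, map_one, Module.End.one_apply]
    have hcm : ρ (dt i) (ρ (dt (i + 1)) u) = -ρ (dt (i + 1)) u := by
      rw [← Module.End.mul_apply, ← map_mul, dt_comm, map_mul, Module.End.mul_apply, hu, map_neg]
    have hthird : ∀ x, ρ (dt (i + 2)) x = ρ (dt i) (ρ (dt (i + 1)) x) := by
      intro x
      rw [← dt_mul, map_mul, Module.End.mul_apply]
    have i3 : i + 1 + 1 = i + 2 := by rw [add_assoc]; rfl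
    have i4 : i + 1 + 2 = i := by rw [add_assoc, show (1 : Fin 3) + 2 = 0 from rfl, add_zero]
    have i5 : i + 2 + 1 = i := by rw [add_assoc, show (2 : Fin 3) + 1 = 0 from rfl, add_zero]
    have i6 : i + 2 + 2 = i + 1 := by rw [add_assoc]; rfl
    have e1 : u + ρ (dt (i + 1)) u = 0 := by
      refine key (i + 1) _ ?_ ?_ ?_
      · rw [map_add, hsq, add_comm]
      · rw [i3, hthird, map_add, hsq, map_add, hcm, hu]
        abel
      · rw [i4, map_add, hu, hcm]
        abel
    have e2 : u - ρ (dt (i + 1)) u = 0 := by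
      refine key (i + 2) _ ?_ ?_ ?_
      · rw [hthird, map_sub, hsq, map_sub, hcm, hu]
        abel
      · rw [i5, map_sub, hu, hcm]
        abel
      · rw [i6, map_sub, hsq]
        abel
    have h4 : (2 : ℂ) • u = 0 := by
      have : (2 : ℂ) • u = (u + ρ (dt (i + 1)) u) + (u - ρ (dt (i + 1)) u) := by module
      rw [this, e1, e2, add_zero]
    exact (smul_eq_zero.1 h4).resolve_left two_ne_zero
  apply LinearMap.ext
  intro v
  rw [Module.End.one_apply, ← sub_eq_zero]
  apply key2
  rw [map_sub, ← Module.End.mul_apply, ← map_mul, dt_sq, map_one, Module.End.one_apply]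
  abel

theorem cyc_d3 : ∃ s, Cyc 3 s d3 := by
  have h : d3.IsThreeCycle := Perm.isThreeCycle_swap_mul_swap_same (by decide) (by decide) (by decide)
  have h1 := cyc_of_isCycle h.isCycle
  rw [h.card_support] at h1
  exact ⟨_, h1⟩

end Four

section General

variable {α : Type} [Fintype α] [DecidableEq α] {V : Type} [AddCommGroup V] [Module ℂ V]

/-- in degree at least five some three-cycle has a nonzero fixed vector -/
theorem exists_three (h5 : 5 ≤ Fintype.card α) [Nontrivial V] (ρ : Representation ℂ (Perm α) V) :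
    ∃ (s : Finset α) (d : Perm α), Cyc 3 s d ∧ ∃ v : V, v ≠ 0 ∧ ρ d v = v := by
  by_contra hcon
  push Not at hcon
  have hno : ∀ (s : Finset α) (c : Perm α), Cyc 3 s c → ∀ v, ρ c v = v → v = 0 := by
    intro s c hc v hv
    by_contra hv0
    exact hcon s c hc v hv0 hv
  have hdt : ∀ f : Fin 4 ↪ α, ρ (swap (f 0) (f 1) * swap (f 2) (f 3)) = 1 := by
    intro f
    obtain ⟨s, hs⟩ := cyc_d3
    have h := dt_trivial (ρ.comp (Perm.viaEmbeddingHom f)) (fun v hv => hno _ _ (hs.via f) v hv) 0
    change ρ (Perm.viaEmbeddingHom f (swap 0 1 * swap 2 3)) = 1 at h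
    rwa [map_mul, via_swap, via_swap] at h
  obtain ⟨F⟩ : Nonempty (Fin 5 ↪ α) := Function.Embedding.nonempty_of_card_le (by rwa [Fintype.card_fin])
  have hF : ∀ {i j : Fin 5}, i ≠ j → F i ≠ F j := fun h => F.injective.ne h
  let f1 : Fin 4 ↪ Fin 5 := ⟨![0, 1, 3, 4], by decide⟩
  let f2 : Fin 4 ↪ Fin 5 := ⟨![3, 4, 0, 2], by decide⟩
  have h1 : ρ (swap (F 0) (F 1) * swap (F 3) (F 4)) = 1 := hdt (f1.trans F)
  have h2 : ρ (swap (F 3) (F 4) * swap (F 0) (F 2)) = 1 := hdt (f2.trans F)
  have h3 : swap (F 0) (F 1) * swap (F 3) (F 4) * (swap (F 3) (F 4) * swap (F 0) (F 2)) =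
      swap (F 0) (F 1) * swap (F 0) (F 2) := by
    rw [mul_assoc, ← mul_assoc (swap (F 3) (F 4)), swap_mul_self, one_mul]
  have h4 : ρ (swap (F 0) (F 1) * swap (F 0) (F 2)) = 1 := by rw [← h3, map_mul, h1, h2, one_mul]
  have h5 : (swap (F 0) (F 1) * swap (F 0) (F 2)).IsThreeCycle :=
    Perm.isThreeCycle_swap_mul_swap_same (hF (by decide)) (hF (by decide)) (hF (by decide))
  have h6 := cyc_of_isCycle h5.isCycle
  rw [h5.card_support] at h6
  obtain ⟨v, hv⟩ := exists_ne (0 : V)
  exact hv (hno _ _ h6 v (by rw [h4, Module.End.one_apply]))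

end General

section Good

theorem Good.congr {α β : Type} [Fintype α] [DecidableEq α] [Fintype β] [DecidableEq β] (e : α ≃ β) (h : Good α) :
    Good β := by
  intro V _ _ _ _ ρ
  let Φ : Perm α ≃* Perm β := e.permCongrHom
  have hs : ∀ g : Perm α, Perm.sign (Φ g) = Perm.sign g := fun g => Perm.sign_permCongr e g
  obtain ⟨x, hx, v, hv, h1⟩ := h V (ρ.comp Φ.toMonoidHom)
  refine ⟨Φ x, ?_, v, hv, fun g hg hgx => ?_⟩
  · rw [Perm.mem_alternatingGroup, hs]
    exact sign_of_mem hx
  · have e1 : Φ (Φ.symm g) = g := Φ.apply_symm_apply g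
    have h2 := h1 (Φ.symm g) (by rw [Perm.mem_alternatingGroup, ← hs, e1]; exact sign_of_mem hg) (by
      apply Φ.injective
      rw [map_mul, map_mul, e1]
      exact hgx)
    change ρ (Φ (Φ.symm g)) v = v at h2
    rwa [e1] at h2

theorem good_of_trivial {α : Type} [Fintype α] [DecidableEq α] (h : ∀ g : Perm α, Perm.sign g = 1 → g = 1) :
    Good α := by
  intro V _ _ _ _ ρ
  obtain ⟨v, hv⟩ := exists_ne (0 : V)
  refine ⟨1, one_mem _, v, hv, fun g hg _ => ?_⟩
  rw [h g (sign_of_mem hg), map_one, Module.End.one_apply]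

theorem good_small {α : Type} [Fintype α] [DecidableEq α] (h : Fintype.card α ≤ 2) : Good α := by
  have h0 : ∀ n : ℕ, n ≤ 2 → Good (Fin n) := by
    intro n hn
    interval_cases n
    · exact good_of_trivial (by decide)
    · exact good_of_trivial (by decide)
    · exact good_of_trivial (by decide)
  exact (h0 _ h).congr (Fintype.equivFin α).symm

theorem dt_cent : ∀ g : Perm (Fin 4), Perm.sign g = 1 → g * dt 0 = dt 0 * g →
    g = 1 ∨ g = dt 0 ∨ g = dt 1 ∨ g = dt 2 := by decide

theorem good_four : Good (Fin 4) := by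
  intro V _ _ _ _ ρ
  by_cases h : ∃ v, v ≠ 0 ∧ ρ d3 v = v
  · obtain ⟨v, hv, h1⟩ := h
    obtain ⟨s, hs⟩ := cyc_d3
    have hcard : Fintype.card {x : Fin 4 // x ∉ s} = 1 := by
      rw [Fintype.card_subtype_compl, Fintype.card_coe, hs.card, Fintype.card_fin]
    exact stepA Nat.prime_three (by norm_num) hs (by omega) (good_small (by omega)) ρ hv h1
  · have h1 := dt_trivial ρ (fun v hv => by
      by_contra hv0
      exact h ⟨v, hv0, hv⟩)
    obtain ⟨v, hv⟩ := exists_ne (0 : V)
    refine ⟨dt 0, Perm.mem_alternatingGroup.2 (by decide), v, hv, fun g hg hgx => ?_⟩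
    rcases dt_cent g (sign_of_mem hg) hgx with rfl | rfl | rfl | rfl
    · rw [map_one, Module.End.one_apply]
    · rw [h1, Module.End.one_apply]
    · rw [h1, Module.End.one_apply]
    · rw [h1, Module.End.one_apply]

end Good

end Cfsg.Agent.H127.An
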