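import Cfsg.Agent.H127.An.Key

/-!
# Tools for representations of symmetric groups (S4792, alternating groups)
-/

set_option autoImplicit false
set_option linter.unusedSectionVars false

namespace Cfsg.Agent.H127.An

open Equiv

section Cyc

variable {α : Type} [Fintype α] [DecidableEq α]

/-- `c` is a cycle on `s`, the identity outside, `|s| = p` -/
structure Cyc (p : ℕ) (s : Finset α) (c : Perm α) : Prop where
  card : s.card = p
  on : c.IsCycleOn (s : Set α)
  supp : c.support ⊆ s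

theorem exists_cyc (s : Finset α) : ∃ c, Cyc s.card s c := by
  obtain ⟨c, h1, h2⟩ := s.exists_cycleOn
  exact ⟨c, rfl, h1, h2⟩

variable {p : ℕ} {s : Finset α} {c : Perm α}

theorem Cyc.fix (h : Cyc p s c) {x : α} (hx : x ∉ s) : c x = x := by
  by_contra hcon
  exact hx (h.supp (Perm.mem_support.2 hcon))

theorem Cyc.mem_iff (h : Cyc p s c) {x : α} : c x ∈ s ↔ x ∈ s := by
  have := h.on.apply_mem_iff (x := x)
  exact_mod_cast this

theorem Cyc.pow_fix (h : Cyc p s c) {x : α} (hx : x ∉ s) (n : ℕ) : (c ^ n) x = x := by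
  induction n with
  | zero => rfl
  | succ n ih => rw [pow_succ, Perm.mul_apply, h.fix hx, ih]

theorem Cyc.pow_eq_one (h : Cyc p s c) : c ^ p = 1 := by
  ext x
  rw [Perm.one_apply]
  by_cases hx : x ∈ s
  · exact (h.on.pow_apply_eq hx).2 (by rw [h.card])
  · exact h.pow_fix hx p

theorem Cyc.exists_pow (h : Cyc p s c) {x y : α} (hx : x ∈ s) (hy : y ∈ s) : ∃ n < p, (c ^ n) x = y := by
  obtain ⟨n, hn, h1⟩ := h.on.exists_pow_eq hx hy
  exact ⟨n, by rwa [← h.card], h1⟩

theorem Cyc.sign (h : Cyc p s c) (hp : Odd p) : Perm.sign c = 1 := by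
  have h1 : Perm.sign c ^ p = 1 := by rw [← map_pow, h.pow_eq_one, map_one]
  rcases Int.units_eq_one_or (Perm.sign c) with h2 | h2
  · exact h2
  · rw [h2, hp.neg_one_pow] at h1
    exact absurd h1 (by decide)

theorem Cyc.conj (h : Cyc p s c) (g : Perm α) : Cyc p (s.map g.toEmbedding) (g * c * g⁻¹) where
  card := by rw [Finset.card_map, h.card]
  on := by
    have := h.on.conj (g := g)
    rw [Finset.coe_map]
    exact this
  supp := by
    intro x hx
    rw [Finset.mem_map]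
    refine ⟨g⁻¹ x, ?_, by simp⟩
    by_contra hcon
    rw [Perm.mem_support] at hx
    apply hx
    rw [Perm.mul_apply, Perm.mul_apply, h.fix hcon]
    simp

/-- a commuting permutation which maps a point of `s` into `s` agrees with a power of `c` on `s` -/
theorem Cyc.commute (h : Cyc p s c) {g : Perm α} (hg : Commute g c) {x : α} (hx : x ∈ s) (hgx : g x ∈ s) :
    ∃ n < p, ∀ y ∈ s, g y = (c ^ n) y := by
  obtain ⟨n, hn, h1⟩ := h.exists_pow hx hgx
  refine ⟨n, hn, fun y hy => ?_⟩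
  obtain ⟨m, -, rfl⟩ := h.exists_pow hx hy
  have h2 : g * c ^ m = c ^ m * g := (hg.pow_right m).eq
  calc g ((c ^ m) x) = (g * c ^ m) x := rfl
    _ = (c ^ m) (g x) := by rw [h2]; rfl
    _ = (c ^ m * c ^ n) x := by rw [← h1]; rfl
    _ = (c ^ n * c ^ m) x := by rw [← pow_add, ← pow_add, add_comm]
    _ = _ := rfl

/-- the support is preserved by a commuting permutation if `2 ≤ p` -/
theorem Cyc.commute_mem (h : Cyc p s c) (hp : 2 ≤ p) {g : Perm α} (hg : Commute g c) {x : α} :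
    g x ∈ s ↔ x ∈ s := by
  have h1 : ∀ y, y ∈ s ↔ c y ≠ y := by
    intro y
    refine ⟨fun hy h0 => ?_, fun hy => h.supp (Perm.mem_support.2 hy)⟩
    have h2 := (h.on.pow_apply_eq hy (n := 1)).1 (by rwa [pow_one])
    rw [h.card] at h2
    have := Nat.le_of_dvd one_pos h2
    omega
  have h2 : c (g x) = g (c x) := by
    have := congrArg (fun t : Perm α => t x) hg.eq
    exact this.symm
  rw [h1, h1, h2]
  exact not_congr g.injective.eq_iff

end Cyc

section Four

variable {α : Type} [Fintype α] [DecidableEq α]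

theorem exists_perm4 {x₀ x₁ x₂ x₃ y₀ y₁ y₂ y₃ : α} (h01 : x₀ ≠ x₁) (h02 : x₀ ≠ x₂) (h03 : x₀ ≠ x₃) (h12 : x₁ ≠ x₂)
    (h13 : x₁ ≠ x₃) (h23 : x₂ ≠ x₃) (k01 : y₀ ≠ y₁) (k02 : y₀ ≠ y₂) (k03 : y₀ ≠ y₃) (k12 : y₁ ≠ y₂)
    (k13 : y₁ ≠ y₃) (k23 : y₂ ≠ y₃) : ∃ g : Perm α, g x₀ = y₀ ∧ g x₁ = y₁ ∧ g x₂ = y₂ ∧ g x₃ = y₃ := by
  have hinj : ∀ {z₀ z₁ z₂ z₃ : α}, z₀ ≠ z₁ → z₀ ≠ z₂ → z₀ ≠ z₃ → z₁ ≠ z₂ → z₁ ≠ z₃ → z₂ ≠ z₃ →
      Function.Injective ![z₀, z₁, z₂, z₃] := by
    intro z₀ z₁ z₂ z₃ e1 e2 e3 e4 e5 e6 a b hab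
    fin_cases a <;> fin_cases b <;> simp_all
  have := Perm.isMultiplyPretransitive α 4
  obtain ⟨g, hg⟩ := this.exists_smul_eq ⟨_, hinj h01 h02 h03 h12 h13 h23⟩ ⟨_, hinj k01 k02 k03 k12 k13 k23⟩
  refine ⟨g, ?_, ?_, ?_, ?_⟩
  · exact DFunLike.congr_fun hg 0
  · exact DFunLike.congr_fun hg 1
  · exact DFunLike.congr_fun hg 2
  · exact DFunLike.congr_fun hg 3

theorem exists_perm2 {x₀ x₁ y₀ y₁ : α} (h01 : x₀ ≠ x₁) (k01 : y₀ ≠ y₁) : ∃ g : Perm α, g x₀ = y₀ ∧ g x₁ = y₁ := by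
  have hinj : ∀ {z₀ z₁ : α}, z₀ ≠ z₁ → Function.Injective ![z₀, z₁] := by
    intro z₀ z₁ e1 a b hab
    fin_cases a <;> fin_cases b <;> simp_all
  have := Perm.isMultiplyPretransitive α 2
  obtain ⟨g, hg⟩ := this.exists_smul_eq ⟨_, hinj h01⟩ ⟨_, hinj k01⟩
  exact ⟨g, DFunLike.congr_fun hg 0, DFunLike.congr_fun hg 1⟩

end Four

section Fn

/-- a vector fixed by the stabiliser of a point gives an equivariant function -/
theorem exists_equiv_fn {G X V : Type} [Group G] [MulAction G X] [AddCommGroup V] [Module ℂ V]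
    (ρ : Representation ℂ G V) (x0 : X) (v : V) (hv : ∀ g : G, g • x0 = x0 → ρ g v = v) :
    ∃ w : X → V, w x0 = v ∧ (∀ g x, ρ g (w x) = w (g • x)) ∧ ∀ x, (∀ g : G, g • x0 ≠ x) → w x = 0 := by
  classical
  let w : X → V := fun x => if h : ∃ g : G, g • x0 = x then ρ h.choose v else 0
  have hw : ∀ g : G, w (g • x0) = ρ g v := by
    intro g
    have h : ∃ h : G, h • x0 = g • x0 := ⟨g, rfl⟩
    have h1 : w (g • x0) = ρ h.choose v := dif_pos h
    rw [h1]
    have h2 : (g⁻¹ * h.choose) • x0 = x0 := by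
      rw [mul_smul, h.choose_spec, inv_smul_smul]
    have h3 := hv _ h2
    calc ρ h.choose v = ρ (g * (g⁻¹ * h.choose)) v := by rw [mul_inv_cancel_left]
      _ = ρ g (ρ (g⁻¹ * h.choose) v) := by rw [map_mul, Module.End.mul_apply]
      _ = ρ g v := by rw [h3]
  have hw0 : ∀ x, (∀ g : G, g • x0 ≠ x) → w x = 0 := fun x hx => dif_neg (by
    rintro ⟨g, hg⟩
    exact hx g hg)
  refine ⟨w, ?_, ?_, hw0⟩
  · have := hw 1
    rwa [one_smul, map_one, Module.End.one_apply] at this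
  · intro g x
    by_cases h : ∃ h : G, h • x0 = x
    · obtain ⟨h, rfl⟩ := h
      rw [hw, smul_smul, hw, map_mul, Module.End.mul_apply]
    · have h1 : ∀ h : G, h • x0 ≠ x := fun h' h'' => h ⟨h', h''⟩
      rw [hw0 x h1, map_zero, hw0]
      intro k hk
      apply h1 (g⁻¹ * k)
      rw [mul_smul, hk, inv_smul_smul]

end Fn

section Sgn

variable {α : Type} [Fintype α] [DecidableEq α] {V : Type} [AddCommGroup V] [Module ℂ V]

/-- the sign as a complex number -/
def sg (g : Perm α) : ℂ := ((Perm.sign g : ℤ) : ℂ)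

theorem sg_mul (g h : Perm α) : sg (g * h) = sg g * sg h := by
  simp only [sg, Perm.sign_mul, Units.val_mul, Int.cast_mul]

theorem sg_one : sg (1 : Perm α) = 1 := by simp [sg]

theorem sg_even {g : Perm α} (h : Perm.sign g = 1) : sg g = 1 := by simp [sg, h]

theorem sg_mul_self (g : Perm α) : sg g * sg g = 1 := by
  rcases Int.units_eq_one_or (Perm.sign g) with h | h <;> simp [sg, h]

/-- twist by the sign -/
def sgnTwist (ρ : Representation ℂ (Perm α) V) : Representation ℂ (Perm α) V where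
  toFun g := sg g • ρ g
  map_one' := by rw [sg_one, map_one, one_smul]
  map_mul' g h := by rw [sg_mul, map_mul, smul_mul_smul_comm]

theorem sgnTwist_apply (ρ : Representation ℂ (Perm α) V) (g : Perm α) (v : V) : sgnTwist ρ g v = sg g • ρ g v := rfl

theorem sgnTwist_even (ρ : Representation ℂ (Perm α) V) {g : Perm α} (hg : Perm.sign g = 1) (v : V) :
    sgnTwist ρ g v = ρ g v := by
  rw [sgnTwist_apply, sg_even hg, one_smul]

end Sgn

section Key

/-- the key lemma for a general set -/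
theorem key_type (hkey : KeyLemma) {α : Type} [Fintype α] [DecidableEq α] (hp : (Fintype.card α).Prime)
    (h5 : 5 ≤ Fintype.card α) {V : Type} [AddCommGroup V] [Module ℂ V] [FiniteDimensional ℂ V] [Nontrivial V]
    (ρ : Representation ℂ (Perm α) V)
    (hc : ∀ c : Perm α, Cyc (Fintype.card α) Finset.univ c → ∀ v, ρ c v = v → v = 0) :
    ∃ (a : α) (v : V), v ≠ 0 ∧ ((∀ g : Perm α, g a = a → ρ g v = v) ∨
      ∀ g : Perm α, g a = a → ρ g v = sg g • v) := by
  let e : α ≃ Fin (Fintype.card α) := Fintype.equivFin α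
  let Φ : Perm (Fin (Fintype.card α)) ≃* Perm α := e.symm.permCongrHom
  have hΦ : ∀ (g : Perm (Fin (Fintype.card α))) (x : α), Φ g x = e.symm (g (e x)) := fun g x => rfl
  have hΦs : ∀ (g : Perm α) (i : Fin (Fintype.card α)), Φ.symm g i = e (g (e.symm i)) := fun g x => rfl
  obtain ⟨a, v, hv, h⟩ := hkey (Fintype.card α) hp h5 V (ρ.comp Φ.toMonoidHom) (by
    intro c hcyc hsup v hv
    refine hc (Φ c) ⟨Finset.card_univ, ?_, Finset.subset_univ _⟩ v hv
    have h1 := hcyc.isCycleOn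
    have h2 : {x | c x ≠ x} = Set.univ := by
      ext x
      simp only [Set.mem_ofPred_eq, Set.mem_univ, iff_true]
      rw [← Perm.mem_support, hsup]
      exact Finset.mem_univ x
    rw [h2] at h1
    rw [Finset.coe_univ]
    refine ⟨(Equiv.bijective _).bijOn_univ, fun x _ y _ => ?_⟩
    obtain ⟨k, hk⟩ := h1.2 (Set.mem_univ (e x)) (Set.mem_univ (e y))
    refine ⟨k, ?_⟩
    rw [← map_zpow, hΦ, hk, Equiv.symm_apply_apply])
  refine ⟨e.symm a, v, hv, ?_⟩
  have hfix : ∀ g : Perm α, g (e.symm a) = e.symm a → Φ.symm g a = a := by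
    intro g hg
    rw [hΦs, hg, Equiv.apply_symm_apply]
  have hρ : ∀ g : Perm α, (ρ.comp Φ.toMonoidHom) (Φ.symm g) = ρ g := fun g => by
    show ρ (Φ (Φ.symm g)) = ρ g
    rw [MulEquiv.apply_symm_apply]
  rcases h with h | h
  · left
    intro g hg
    have := h _ (hfix g hg)
    rwa [hρ] at this
  · right
    intro g hg
    have := h _ (hfix g hg)
    rw [hρ] at this
    rw [this, sg]
    congr 3
    exact Perm.sign_permCongr e g

end Key

end Cfsg.Agent.H127.An
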